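/-
An element of order four squaring to minus one on a plane: a central commutator of a `q`-group
commuting with it centralizes every invariant `2`-group.
-/
import Mathlib
import Cfsg.Agent.Lib.HallHigmanExc.SymplecticPair
import Cfsg.Agent.Lib.HallHigmanExc.Derived

set_option autoImplicit false
set_option linter.style.haveILetI false
set_option linter.unusedSectionVars false

open scoped commutatorElement

namespace CfsgLib.GrossTwoLength

open CfsgLib.HallHigmanExc

universe u v w

section Blocks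

variable {G : Type w} [Group G] {K : Type u} [Field K] {V : Type v} [AddCommGroup V] [Module K V]
  {ρ : G →* Module.End K V} {e : Module.End K V}

/-- On a block of dimension at most one everything commutes. -/
theorem comm_of_finrank_le_one [FiniteDimensional K V] (he : e * e = e)
    (h : Module.finrank K (LinearMap.range e) ≤ 1) {a b : G} (ha : Commute (ρ a) e)
    (hb : Commute (ρ b) e) : ρ a * ρ b * e = ρ b * ρ a * e := by
  obtain ⟨v, hv⟩ := finrank_le_one_iff.1 h
  have hscal : ∀ g : G, Commute (ρ g) e → ∃ α : K, ρ g (v : V) = α • (v : V) := by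
    intro g hg
    obtain ⟨w, hw⟩ := v.2
    have hmem : ρ g (v : V) ∈ LinearMap.range e := ⟨ρ g w, by
      rw [← hw, ← Module.End.mul_apply, ← Module.End.mul_apply, hg.eq]⟩
    obtain ⟨α, hα⟩ := hv ⟨_, hmem⟩
    exact ⟨α, (congrArg Subtype.val hα).symm⟩
  obtain ⟨α, hα⟩ := hscal a ha
  obtain ⟨β, hβ⟩ := hscal b hb
  refine LinearMap.ext fun x => ?_
  obtain ⟨c, hc⟩ := hv ⟨e x, x, rfl⟩
  have hc' : e x = c • (v : V) := (congrArg Subtype.val hc).symm
  rw [Module.End.mul_apply, Module.End.mul_apply, Module.End.mul_apply, Module.End.mul_apply, hc',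
    map_smul, map_smul, map_smul, map_smul, hα, hβ, map_smul, map_smul, hα, hβ]
  module

/-- The elements fixing a block. -/
def blockStab (ρ : G →* Module.End K V) (e : Module.End K V) : Subgroup G where
  carrier := {g | Commute (ρ g) e}
  one_mem' := by rw [Set.mem_setOf_eq, map_one]; exact Commute.one_left e
  mul_mem' {x y} hx hy := by
    rw [Set.mem_setOf_eq] at hx hy ⊢
    rw [map_mul]; exact hx.mul_left hy
  inv_mem' {x} hx := commute_inv hx

theorem mem_blockStab {g : G} : g ∈ blockStab ρ e ↔ Commute (ρ g) e := Iff.rfl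

/-- A block has a conjugate block, on which commutation is transported. -/
theorem exists_conj_blk [Finite G] {Q : Subgroup G} (l : centerImage ρ Q →* Kˣ) {g : G}
    (hg : g ∈ Subgroup.normalizer (Q : Set G)) :
    ∃ l' : centerImage ρ Q →* Kˣ,
      ρ g * blk (centerImage ρ Q) l' = blk (centerImage ρ Q) l * ρ g := by
  refine ⟨twist _ (mem_normalizer_centerImage (ρ := ρ)
    ((Subgroup.normalizer (Q : Set G)).inv_mem hg)) l, ?_⟩
  have h : ρ g⁻¹ * blk (centerImage ρ Q) l = blk (centerImage ρ Q) (twist _ _ l) * ρ g⁻¹ :=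
    unit_mul_blk _ (mem_normalizer_centerImage (ρ := ρ)
      ((Subgroup.normalizer (Q : Set G)).inv_mem hg)) l
  have h2 := congrArg (fun f => ρ g * f * ρ g) h
  simp only [← mul_assoc, (rho_mul_inv g).1, one_mul] at h2
  rw [mul_assoc (ρ g * _), (rho_mul_inv g).2, mul_one] at h2
  exact h2.symm

/-- If `τ` fixes the conjugates of a block, then so do the conjugates of `τ` fix the block. -/
theorem conj_mem_blockStab {g τ : G} {e' : Module.End K V} (h : ρ g * e' = e * ρ g)
    (hτ : Commute (ρ τ) e') : g * τ * g⁻¹ ∈ blockStab ρ e := by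
  have h' : ρ g⁻¹ * e = e' * ρ g⁻¹ := by
    have h2 := congrArg (fun f => ρ g⁻¹ * f * ρ g⁻¹) h
    simp only [← mul_assoc, (rho_mul_inv g).2, one_mul] at h2
    rw [mul_assoc (ρ g⁻¹ * e), (rho_mul_inv g).1, mul_one] at h2
    exact h2.symm
  show Commute (ρ (g * τ * g⁻¹)) e
  show _ * _ = _ * _
  rw [map_mul, map_mul, mul_assoc, h', ← mul_assoc, mul_assoc (ρ g), hτ.eq, ← mul_assoc (ρ g), h]
  simp only [mul_assoc]

/-- The commutators with a cyclic group fix what its conjugates fix. -/
theorem commutator_zpowers_le {X F : Subgroup G} {τ : G} (hτ : τ ∈ F)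
    (hg : ∀ g ∈ X, g * τ * g⁻¹ ∈ F) : ⁅X, Subgroup.zpowers τ⁆ ≤ F := by
  refine Subgroup.commutator_le.2 fun g hgX d hd => ?_
  obtain ⟨k, rfl⟩ := Subgroup.mem_zpowers_iff.1 hd
  rw [commutatorElement_def, ← conj_zpow]
  exact F.mul_mem (F.zpow_mem (hg g hgX) k) (F.inv_mem (F.zpow_mem hτ k))

end Blocks

variable {q : ℕ} [hq : Fact q.Prime] {M : Type v} [AddCommGroup M] [Finite M] {R : Type w} [Group R]
  [Finite R] {C : Type u} [AddCommGroup C]

set_option maxHeartbeats 1600000 in
/-- A central commutator of an invariant `q`-group commuting with `i` centralizes every invariant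
`2`-group. -/
theorem commute_twoGroup {φ : R →* AddMonoid.End M} {B : M →+ M →+ C} {i : R}
    (h : PairData q φ B i) {X P : Subgroup R} (hX : IsPGroup q X) (hP : IsPGroup 2 P)
    (hiX : i ∈ Subgroup.normalizer (X : Set R)) (hiP : i ∈ Subgroup.normalizer (P : Set R))
    (hXP : X ≤ Subgroup.normalizer (P : Set R)) (hgenX : X ≤ ⁅X, Subgroup.zpowers (i * i)⁆)
    {a b : R} (ha : a ∈ X) (hb : b ∈ X) (hzX : ∀ g ∈ X, ⁅a, b⁆ * g = g * ⁅a, b⁆)
    (hzi : ⁅a, b⁆ * i = i * ⁅a, b⁆) : ∀ d ∈ P, ⁅a, b⁆ * d = d * ⁅a, b⁆ := by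
  classical
  haveI : Fact (Nat.Prime 2) := ⟨Nat.prime_two⟩
  letI : Module (ZMod q) M := AddCommGroup.zmodModule h.tors
  have hqp : q.Prime := hq.out
  have hq2 : q ≠ 2 := fun hq0 => by have := h.mod_four; omega
  have hq3 : 3 ≤ q := by have := h.mod_four; omega
  set τ := i * i with hτ
  set z := ⁅a, b⁆ with hz
  have hzmem : z ∈ X := Subgroup.commutator_le_self X (Subgroup.commutator_mem_commutator ha hb)
  have hτX : τ ∈ Subgroup.normalizer (X : Set R) := Subgroup.mul_mem _ hiX hiX
  -- the subgroup spanned by the plane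
  set W := (disp φ τ).range
  set U : AddSubgroup M := AddSubgroup.closure {m | ∃ g ∈ X, ∃ w ∈ W, φ g w = m} with hU
  have hWU : ∀ w ∈ W, w ∈ U := fun w hw =>
    AddSubgroup.subset_closure ⟨1, X.one_mem, w, hw, end_map_one_apply φ w⟩
  have hXU : ∀ g ∈ X, ∀ u ∈ U, φ g u ∈ U := by
    intro g hg u hu
    induction hu using AddSubgroup.closure_induction with
    | mem y hy =>
      obtain ⟨g', hg', w, hw, rfl⟩ := hy
      exact AddSubgroup.subset_closure ⟨g * g', X.mul_mem hg hg', w, hw, end_map_mul_apply φ g g' w⟩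
    | zero => rw [map_zero]; exact U.zero_mem
    | add a b _ _ ha hb => rw [map_add]; exact U.add_mem ha hb
    | neg a _ ha => rw [map_neg]; exact U.neg_mem ha
  have hτU : ∀ u ∈ U, φ τ u ∈ U := by
    intro u hu
    induction hu using AddSubgroup.closure_induction with
    | mem y hy =>
      obtain ⟨g', hg', w, hw, rfl⟩ := hy
      refine AddSubgroup.subset_closure
        ⟨τ * g' * τ⁻¹, (Subgroup.mem_normalizer_iff.1 hτX g').1 hg', -w, W.neg_mem hw, ?_⟩
      rw [← h.tau_neg hw, ← end_map_mul_apply, ← end_map_mul_apply, inv_mul_cancel_right]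
    | zero => rw [map_zero]; exact U.zero_mem
    | add a b _ _ ha hb => rw [map_add]; exact U.add_mem ha hb
    | neg a _ ha => rw [map_neg]; exact U.neg_mem ha
  let FU : Subgroup R :=
    { carrier := {r | (∀ u ∈ U, φ r u ∈ U) ∧ ∀ m, φ r m - m ∈ U}
      one_mem' := ⟨fun u hu => by rwa [end_map_one_apply], fun m => by
        rw [end_map_one_apply, sub_self]; exact U.zero_mem⟩
      mul_mem' := fun {a b} ha hb => ⟨fun u hu => by
          rw [end_map_mul_apply]; exact ha.1 _ (hb.1 u hu),
        fun m => by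
          have h9 := U.add_mem (ha.2 (φ b m)) (hb.2 m)
          rwa [sub_add_sub_cancel, ← end_map_mul_apply] at h9⟩
      inv_mem' := fun {a} ha => ⟨fun u hu => by
          have h9 := U.sub_mem hu (ha.2 (φ a⁻¹ u))
          rwa [← end_map_mul_apply, mul_inv_cancel, end_map_one_apply, sub_sub_cancel] at h9,
        fun m => by
          have h9 := U.neg_mem (ha.2 (φ a⁻¹ m))
          rwa [neg_sub, ← end_map_mul_apply, mul_inv_cancel, end_map_one_apply] at h9⟩ }
  have hzU : z ∈ FU := by
    refine ((hgenX.trans (commutator_zpowers_le (X := X) (F := FU)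
      ⟨hτU, fun m => hWU _ ⟨m, rfl⟩⟩ fun g hg => ⟨fun u hu => ?_, fun m => ?_⟩)) hzmem)
    · rw [end_map_mul_apply, end_map_mul_apply]
      exact hXU g hg _ (hτU _ (hXU _ (X.inv_mem hg) u hu))
    · have h9 : φ g (disp φ τ (φ g⁻¹ m)) ∈ U := hXU g hg _ (hWU _ ⟨_, rfl⟩)
      rwa [disp_apply, map_sub, ← end_map_mul_apply, ← end_map_mul_apply, ← end_map_mul_apply,
        mul_inv_cancel, end_map_one_apply] at h9
  have hzfix : ∀ u ∈ U, φ z u = u := by
    obtain ⟨k, hk⟩ := hX ⟨z, hzmem⟩
    intro u hu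
    induction hu using AddSubgroup.closure_induction with
    | mem y hy =>
      obtain ⟨g, hg, w, hw, rfl⟩ := hy
      rw [← end_map_mul_apply, hzX g hg, end_map_mul_apply,
        h.commuting_trivial hzi ((hqp.odd_of_ne_two hq2).pow (n := k)) (congrArg Subtype.val hk) hw]
    | zero => rw [map_zero]
    | add a b _ _ ha hb => rw [map_add, ha, hb]
    | neg a _ ha => rw [map_neg, ha]
  have hz2 : ∀ m, φ z (φ z m - m) = φ z m - m := fun m => hzfix _ (hzU.2 m)
  have hzq : z ^ q = 1 := by
    refine h.inj ((end_eq_one_iff.2 fun m => ?_).trans (map_one φ).symm)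
    have hk : ∀ k : ℕ, φ (z ^ k) m = m + k • (φ z m - m) := by
      intro k
      induction k with
      | zero => rw [pow_zero, end_map_one_apply, zero_nsmul, add_zero]
      | succ k ih =>
        rw [pow_succ', end_map_mul_apply, ih, map_add, map_nsmul, hz2, succ_nsmul]
        abel
    rw [hk, h.tors, add_zero]
  intro d0 hd0
  by_contra hne0
  -- a minimal invariant subgroup
  set A := X ⊔ Subgroup.zpowers i with hA
  obtain ⟨Q, hQm⟩ := exists_minimal_of_wellFoundedLT (fun T : Subgroup R =>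
    IsPGroup 2 T ∧ A ≤ Subgroup.normalizer (T : Set R) ∧
      ¬ Subgroup.zpowers z ≤ Subgroup.centralizer (T : Set R))
    ⟨P, hP, sup_le hXP (Subgroup.zpowers_le.2 hiP), fun hle => hne0
      (Subgroup.mem_centralizer_iff.1 (hle (Subgroup.mem_zpowers z)) d0 hd0).symm⟩
  obtain ⟨hQ, hAQ, hne⟩ := hQm.prop
  have hmin : ∀ T : Subgroup R, T < Q → A ≤ Subgroup.normalizer (T : Set R) →
      Subgroup.zpowers z ≤ Subgroup.centralizer (T : Set R) := fun T hT hAT => by
    by_contra h'
    exact hT.not_ge (hQm.le_of_le ⟨hQ.to_le hT.le, hAT, h'⟩ hT.le)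
  have hXQ : X ≤ Subgroup.normalizer (Q : Set R) := le_sup_left.trans hAQ
  have hiQ : i ∈ Subgroup.normalizer (Q : Set R) :=
    hAQ (Subgroup.mem_sup_right (Subgroup.mem_zpowers i))
  have hzQ : z ∈ Subgroup.normalizer (Q : Set R) := hXQ hzmem
  have hAz : A ≤ Subgroup.normalizer (Subgroup.zpowers z : Set R) := by
    refine le_trans (sup_le (fun g hg => ?_) (Subgroup.zpowers_le.2 ?_))
      (Subgroup.centralizer_le_normalizer _)
    · rw [Subgroup.mem_centralizer_iff]
      intro y hy
      obtain ⟨k, rfl⟩ := Subgroup.mem_zpowers_iff.1 hy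
      exact (show Commute z g from hzX g hg).zpow_left k
    · rw [Subgroup.mem_centralizer_iff]
      intro y hy
      obtain ⟨k, rfl⟩ := Subgroup.mem_zpowers_iff.1 hy
      exact (show Commute z i from hzi).zpow_left k
  have hcop : (Nat.card (Subgroup.zpowers z)).Coprime (Nat.card Q) := by
    obtain ⟨j, hj⟩ := IsPGroup.iff_card.1 hQ
    rw [hj, Nat.card_zpowers]
    exact (((Nat.coprime_primes hqp Nat.prime_two).2 hq2).coprime_dvd_left
      (orderOf_dvd_of_pow_eq_one hzq)).pow_right j
  obtain ⟨hgen, hcl, -⟩ := structure_of_minimal hQ hAQ hAz (Subgroup.zpowers_le.2 hzQ) hcop hne hmin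
  -- the representation
  obtain ⟨n, co, N, hco, hN, hcoN, hspan⟩ := exists_coordinates (p := q) h.tors
  haveI : CharP (AlgebraicClosure (ZMod q)) q :=
    charP_of_injective_algebraMap (algebraMap (ZMod q) _).injective q
  set K := AlgebraicClosure (ZMod q) with hKdef
  have h2K : ((2 : ℕ) : K) ≠ 0 := by
    rw [Ne, CharP.cast_eq_zero_iff K q 2]
    exact fun hd => hq2 ((Nat.prime_dvd_prime_iff_eq hqp Nat.prime_two).1 hd)
  set ρ := N.comp φ with hρdef
  have hρ : Function.Injective ρ := fun x y hxy => h.inj (hN hxy)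
  have hρco : ∀ r m, ρ r (co m) = co (φ r m) := fun r m => (hcoN (φ r) m).symm
  let cc : ℕ → K := fun k => if k = 1 then -2 else 1
  have hquad : ∑ k ∈ Finset.range (2 + 1), cc k • ρ z ^ k = 0 := by
    refine LinearMap.ext_on hspan ?_
    rintro _ ⟨m, rfl⟩
    simp only [Finset.sum_range_succ, Finset.sum_range_zero, zero_add, cc, LinearMap.add_apply,
      LinearMap.smul_apply, LinearMap.zero_apply]
    norm_num
    simp only [pow_two, Module.End.mul_apply, hρco]
    have h9 := congrArg co (hz2 m)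
    rw [map_sub (φ z), map_sub, map_sub, sub_eq_iff_eq_add] at h9
    rw [h9]
    module
  have hcardA := card_centerImage_ne_zero (ρ := ρ) hQ h2K
  have hze : ∀ l : centerImage ρ Q →* Kˣ, blk (centerImage ρ Q) l ≠ 0 →
      Commute (ρ z) (blk (centerImage ρ Q) l) := by
    intro l hl
    obtain ⟨k, hk0, hkq, hk2, -, hc, -⟩ := exists_block_relation (centerImage ρ Q) hcardA
      (mem_normalizer_centerImage (ρ := ρ) hzQ) (θ := ρ.toHomUnits z) (P := q)
      (by rw [← map_pow, hzq, map_one]) (s := 2) (by omega) (c := cc) (by simp [cc]) hquad hl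
    rcases (Nat.dvd_prime hqp).1 hkq with rfl | rfl
    · rw [pow_one] at hc; exact hc
    · omega
  have hQe : ∀ l : centerImage ρ Q →* Kˣ, ∀ g ∈ Q, Commute (ρ g) (blk (centerImage ρ Q) l) :=
    fun l g hg => commute_blk_of_mem l hg
  have hee : ∀ l : centerImage ρ Q →* Kˣ,
      blk (centerImage ρ Q) l * blk (centerImage ρ Q) l = blk (centerImage ρ Q) l := fun l => by
    rw [blk_mul_blk _ hcardA, if_pos rfl]
  -- the square fixes every nonabelian block
  have hτfix : ∀ l : centerImage ρ Q →* Kˣ,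
      ¬ (∀ x ∈ Q, ∀ y ∈ Q, ρ x * ρ y * blk (centerImage ρ Q) l =
        ρ y * ρ x * blk (centerImage ρ Q) l) → Commute (ρ τ) (blk (centerImage ρ Q) l) := by
    intro l hnab
    by_contra hτe
    refine hnab fun x hx y hy => comm_of_finrank_le_one (hee l) ?_ (hQe l x hx) (hQe l y hy)
    set e := blk (centerImage ρ Q) l with he
    have hz1 : e * ρ τ * e = 0 := ((commute_or_mul_eq_zero hQ h2K l
      (Subgroup.mul_mem _ hiQ hiQ : τ ∈ Subgroup.normalizer (Q : Set R))).resolve_left hτe)
    have hine : ¬ Commute (ρ i) e := fun hc => hτe (by rw [hτ, map_mul]; exact hc.mul_left hc)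
    have hz2' : e * ρ i * e = 0 := (commute_or_mul_eq_zero hQ h2K l hiQ).resolve_left hine
    have hz3 : e * ρ (τ * i) * e = 0 := by
      refine (commute_or_mul_eq_zero hQ h2K l
        (Subgroup.mul_mem _ (Subgroup.mul_mem _ hiQ hiQ) hiQ)).resolve_left fun hc => hine ?_
      have hinv : (τ * i)⁻¹ = i := inv_eq_of_mul_eq_one_right (by
        rw [mul_assoc]; exact h.four)
      rw [← hinv]
      exact commute_inv hc
    by_cases hW : W = ⊥
    · exfalso
      refine hτe ?_
      have h1 : φ τ = 1 := end_eq_one_iff.2 fun m => sub_eq_zero.1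
        (AddSubgroup.mem_bot.1 (hW ▸ (⟨m, rfl⟩ : disp φ τ m ∈ W)))
      rw [hρdef, MonoidHom.comp_apply, h1, map_one]
      exact Commute.one_left e
    obtain ⟨v, hv, hv0⟩ := (W.bot_or_exists_ne_zero).resolve_left hW
    set pair : Fin 2 → (Fin n → K) := ![co v, co (φ i v)] with hpair
    set Sp := Submodule.span K (Set.range pair) with hSp
    have hrange : LinearMap.range (ρ τ - 1) ≤ Sp := by
      rw [LinearMap.range_eq_map, ← hspan, Submodule.map_span, Submodule.span_le]
      rintro _ ⟨_, ⟨m, rfl⟩, rfl⟩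
      obtain ⟨c, d, hcd⟩ := h.exists_coords hv hv0 (⟨m, rfl⟩ : disp φ τ m ∈ W)
      rw [LinearMap.sub_apply, Module.End.one_apply, hρco, ← map_sub, ← disp_apply, hcd,
        ← ZMod.natCast_zmod_val c, ← ZMod.natCast_zmod_val d, Nat.cast_smul_eq_nsmul,
        Nat.cast_smul_eq_nsmul, map_add, map_nsmul, map_nsmul]
      exact Sp.add_mem (nsmul_mem (Submodule.subset_span (Set.mem_range_self (f := pair) 0)) _)
        (nsmul_mem (Submodule.subset_span (Set.mem_range_self (f := pair) 1)) _)
    let L : (LinearMap.range e × LinearMap.range e) →ₗ[K] (Fin n → K) :=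
      (ρ τ - 1).comp (((LinearMap.range e).subtype.comp (LinearMap.fst K _ _)) +
        (ρ i).comp ((LinearMap.range e).subtype.comp (LinearMap.snd K _ _)))
    have hfix : ∀ w : LinearMap.range e, e (w : Fin n → K) = w := fun ⟨w, u, hu⟩ => by
      subst hu; exact LinearMap.congr_fun (hee l) u
    have hinj : Function.Injective L := by
      refine (injective_iff_map_eq_zero L).2 fun p hp => ?_
      obtain ⟨x', y'⟩ := p
      have h0 : ρ τ (x' : Fin n → K) + ρ (τ * i) (y' : Fin n → K) =
          (x' : Fin n → K) + ρ i (y' : Fin n → K) := by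
        have h9 : ρ τ ((x' : Fin n → K) + ρ i (y' : Fin n → K)) -
            ((x' : Fin n → K) + ρ i (y' : Fin n → K)) = 0 := hp
        rw [map_add, ← Module.End.mul_apply, ← map_mul, sub_eq_zero] at h9
        exact h9
      have hkill : ∀ g, e * ρ g * e = 0 → ∀ w : LinearMap.range e, e (ρ g w) = 0 := fun g hg w => by
        have h9 := LinearMap.congr_fun hg (w : Fin n → K)
        rwa [Module.End.mul_apply, Module.End.mul_apply, hfix, LinearMap.zero_apply] at h9
      have hx0 : (x' : Fin n → K) = 0 := by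
        have h9 := congrArg e h0
        rw [map_add, map_add, hkill _ hz1, hkill _ hz3, hkill _ hz2', hfix, add_zero, add_zero] at h9
        exact h9.symm
      rw [hx0, map_zero, zero_add, zero_add] at h0
      have hcomm : τ * i = i * τ := by rw [hτ, mul_assoc]
      rw [hcomm, map_mul, Module.End.mul_apply] at h0
      have h1 : ρ τ (y' : Fin n → K) = y' := by
        have h9 := congrArg (ρ i⁻¹) h0
        rwa [← Module.End.mul_apply, ← Module.End.mul_apply (ρ i⁻¹), (rho_mul_inv i).2,
          Module.End.one_apply, Module.End.one_apply] at h9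
      have hy0 : (y' : Fin n → K) = 0 := by
        rw [← hfix y', ← h1, hkill _ hz1]
      exact Prod.ext (Subtype.ext hx0) (Subtype.ext hy0)
    have h9 := LinearMap.finrank_le_finrank_of_injective
      (f := L.codRestrict Sp fun p => hrange ⟨_, rfl⟩)
      (fun p p' hpp => hinj (congrArg Subtype.val hpp))
    rw [Module.finrank_prod] at h9
    show Module.finrank K (LinearMap.range e) ≤ 1
    have h10 : Module.finrank K Sp ≤ 2 := by
      have := finrank_range_le_card (R := K) pair
      rw [Fintype.card_fin] at this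
      exact this
    have h11 : Module.finrank K (LinearMap.range e) + Module.finrank K (LinearMap.range e) ≤ 2 :=
      h9.trans h10
    omega
  -- every block is trivial
  suffices hall : ∀ l : centerImage ρ Q →* Kˣ, ∀ g ∈ Q,
      ρ g * blk (centerImage ρ Q) l = blk (centerImage ρ Q) l by
    refine hne fun w _ => Subgroup.mem_centralizer_iff.2 fun g hg => ?_
    obtain ⟨hf, hsum⟩ := exists_sum_blk (K := K) (centerImage ρ Q) hcardA
    have hg1 : g = 1 := hρ (by
      rw [map_one, ← mul_one (ρ g), ← hsum, Finset.mul_sum]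
      exact Finset.sum_congr rfl fun l _ => hall l g hg)
    rw [hg1, one_mul, mul_one]
  intro l
  by_cases hl : blk (centerImage ρ Q) l = 0
  · intro g _; rw [hl, mul_zero]
  set e := blk (centerImage ρ Q) l with he
  rcases block_dichotomy (p := q) (q := 2) (e := e) (y := z) h2K hQ (hee l) (hQe l) hzQ (hze l hl)
      (fun x hx y hy => scalar_commutators hcl l hx hy) (k := 1) le_rfl (by rw [pow_one, hzq])
      (by simpa using hgen) (s := 2) (by rw [pow_one]; omega) (c := cc) (by simp [cc])
      (by rw [hquad, zero_mul]) with htriv | ⟨j, m, hj, hm, hjm, hm2, hidx⟩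
  · exact htriv
  exfalso
  have hm1 : m = 1 := by
    by_contra hm1
    have : 2 ^ 2 ≤ 2 ^ m := Nat.pow_le_pow_right two_pos (by omega)
    omega
  subst hm1
  obtain rfl : q = 3 := by
    rcases Nat.le_one_iff_eq_zero_or_eq_one.1 hj with rfl | rfl
    · simp at hjm
    · rw [pow_one, pow_one] at hjm; omega
  set S := blockKer ρ Q e (fun _ hg => commute_blk_of_mem l hg) with hS
  have hidx4 : S.relIndex Q = 4 := by rw [hidx]; norm_num
  have hnab : ¬ (∀ x ∈ Q, ∀ y ∈ Q, ρ x * ρ y * e = ρ y * ρ x * e) := fun hab => by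
    have hSQ : S = Q := le_antisymm blockKer_le fun g hg => ⟨hg, hab g hg⟩
    rw [hSQ, Subgroup.relIndex_self] at hidx4
    omega
  -- `X` fixes the block
  have hXe : ∀ g ∈ X, Commute (ρ g) e := by
    refine fun g hg => (hgenX.trans (commutator_zpowers_le (F := blockStab ρ e) (hτfix l hnab)
      fun g hg => ?_)) hg
    obtain ⟨l', hl'⟩ := exists_conj_blk (ρ := ρ) l (hXQ hg)
    refine conj_mem_blockStab hl' (hτfix l' fun hab => hnab fun x hx y hy => ?_)
    have hgi := (Subgroup.normalizer (Q : Set R)).inv_mem (hXQ hg)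
    have hx' : g⁻¹ * x * g ∈ Q := by simpa using (Subgroup.mem_normalizer_iff.1 hgi x).1 hx
    have hy' : g⁻¹ * y * g ∈ Q := by simpa using (Subgroup.mem_normalizer_iff.1 hgi y).1 hy
    have h9 := congrArg (fun f => ρ g * f * ρ g⁻¹) (hab _ hx' _ hy')
    have e1 : ∀ u w : R, ρ g * (ρ (g⁻¹ * u * g) * ρ (g⁻¹ * w * g) * blk (centerImage ρ Q) l') * ρ g⁻¹ =
        ρ u * ρ w * e := by
      intro u w
      rw [← map_mul ρ (g⁻¹ * u * g), show g⁻¹ * u * g * (g⁻¹ * w * g) = g⁻¹ * (u * w) * g by group,
        map_mul, map_mul, ← mul_assoc (ρ g), ← mul_assoc (ρ g), ← mul_assoc (ρ g),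
        (rho_mul_inv g).1, one_mul, mul_assoc (ρ (u * w)), hl', ← mul_assoc,
        mul_assoc (ρ (u * w) * _), (rho_mul_inv g).1, mul_one, map_mul]
    simp only [e1] at h9
    exact h9
  -- the action on the cosets
  have hSn : ∀ g ∈ X, g ∈ Subgroup.normalizer (S : Set R) := fun g hg =>
    blockKer_normalizer (hXQ hg) (hXe g hg)
  let T := Q ⧸ S.subgroupOf Q
  let act : X → Q → Q := fun g x => ⟨g * x * (g : R)⁻¹, (Subgroup.mem_normalizer_iff.1 (hXQ g.2) x).1 x.2⟩
  let σ0 : X → T → T := fun g t => Quotient.liftOn' t (fun x => QuotientGroup.mk (act g x))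
    fun x y hxy => by
      rw [QuotientGroup.leftRel_apply, Subgroup.mem_subgroupOf, Subgroup.coe_mul,
        Subgroup.coe_inv] at hxy
      rw [QuotientGroup.eq, Subgroup.mem_subgroupOf, Subgroup.coe_mul, Subgroup.coe_inv]
      show ((g : R) * x * (g : R)⁻¹)⁻¹ * (g * y * (g : R)⁻¹) ∈ S
      rw [show ((g : R) * x * (g : R)⁻¹)⁻¹ * (g * y * (g : R)⁻¹) = g * ((x : R)⁻¹ * y) * (g : R)⁻¹ by
        group]
      exact (Subgroup.mem_normalizer_iff.1 (hSn g g.2) _).1 hxy
  have hσ0 : ∀ (g : X) (x : Q), σ0 g (QuotientGroup.mk x) = QuotientGroup.mk (act g x) :=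
    fun _ _ => rfl
  have hσmul : ∀ g g' t, σ0 (g * g') t = σ0 g (σ0 g' t) := by
    intro g g' t
    induction t using QuotientGroup.induction_on with | _ x =>
    rw [hσ0, hσ0, hσ0]
    congr 1
    refine Subtype.ext ?_
    show (g : R) * g' * x * ((g : R) * g')⁻¹ = g * (g' * x * (g' : R)⁻¹) * (g : R)⁻¹
    group
  have hσone : ∀ t, σ0 1 t = t := by
    intro t
    induction t using QuotientGroup.induction_on with | _ x =>
    rw [hσ0]
    congr 1
    exact Subtype.ext (by simp [act])
  let σ : X →* Equiv.Perm T :=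
    { toFun := fun g =>
        { toFun := σ0 g
          invFun := σ0 g⁻¹
          left_inv := fun t => by rw [← hσmul, inv_mul_cancel, hσone]
          right_inv := fun t => by rw [← hσmul, mul_inv_cancel, hσone] }
      map_one' := Equiv.ext hσone
      map_mul' := fun g g' => Equiv.ext (hσmul g g') }
  have hT4 : Nat.card T = 4 := by rw [← hidx4, Subgroup.relIndex, Subgroup.index_eq_card]
  obtain ⟨k, hk⟩ := IsPGroup.iff_card.1 (hX.of_surjective _ σ.rangeRestrict_surjective)
  have hdvd := Subgroup.card_subgroup_dvd_card σ.range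
  rw [Nat.card_perm, hT4, hk] at hdvd
  have hk1 : k ≤ 1 := by
    by_contra hgt
    have := dvd_trans (pow_dvd_pow 3 (show 2 ≤ k by omega)) hdvd
    norm_num [Nat.factorial] at this
  haveI : IsCyclic σ.range := by
    rcases Nat.le_one_iff_eq_zero_or_eq_one.1 hk1 with rfl | rfl
    · haveI : Subsingleton σ.range := (Nat.card_eq_one_iff_unique.1 (by rw [hk, pow_zero])).1
      infer_instance
    · exact isCyclic_of_prime_card (p := 3) (by rw [hk, pow_one])
  have hzker : Subgroup.zpowers z ≤ σ.ker.map X.subtype := by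
    refine Subgroup.zpowers_le.2 ⟨⁅(⟨a, ha⟩ : X), (⟨b, hb⟩ : X)⁆, ?_, map_commutatorElement _ _ _⟩
    rw [SetLike.mem_coe, MonoidHom.mem_ker, map_commutatorElement,
      commutatorElement_eq_one_iff_mul_comm]
    exact congrArg Subtype.val ((IsCyclic.isMulCommutative (α := σ.range)).is_comm.comm
      (σ.rangeRestrict ⟨a, ha⟩) (σ.rangeRestrict ⟨b, hb⟩))
  have hle : ⁅Q, Subgroup.zpowers z⁆ ≤ S := by
    refine Subgroup.commutator_le.2 fun x hx w hw => ?_
    obtain ⟨g, hg, rfl⟩ := hzker hw
    have h9 : σ g (QuotientGroup.mk (⟨x⁻¹, Q.inv_mem hx⟩ : Q)) =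
        QuotientGroup.mk (⟨x⁻¹, Q.inv_mem hx⟩ : Q) := by rw [MonoidHom.mem_ker.1 hg]; rfl
    have h10 := QuotientGroup.eq.1 h9.symm
    rw [Subgroup.mem_subgroupOf, Subgroup.coe_mul, Subgroup.coe_inv] at h10
    simpa [act, commutatorElement_def, mul_assoc] using h10
  exact hnab fun x hx y hy => (hle (hgen hx)).2 y hy

end CfsgLib.GrossTwoLength
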