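/-
On each block of an `s`-group the commutators of a `2`-group with a central commutator act
trivially on the quotient by the kernel of the block.
-/
import Mathlib
import Cfsg.Agent.Lib.HallHigmanExc.GrossConfig
import Cfsg.Agent.Lib.GrossTwoLength.PairCommute

set_option autoImplicit false
set_option linter.style.haveILetI false
set_option linter.unusedSectionVars false

open scoped commutatorElement

namespace CfsgLib.GrossTwoLength

open CfsgLib.HallHigmanExc CfsgLib.CoprimeAction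

universe u v w

variable {K : Type u} [Field K] {V : Type v} [AddCommGroup V] [Module K V]

set_option maxHeartbeats 1600000 in
theorem block_step [IsAlgClosed K] [FiniteDimensional K V] {H : Type w} [Group H] [Finite H]
    {ρ : H →* Module.End K V} {s : ℕ} [Fact s.Prime] (hs2 : s ≠ 2) (hsK : (s : K) ≠ 0)
    {Q X D : Subgroup H} (hQ : IsPGroup s Q) (hX : IsPGroup s X) (hD : IsPGroup 2 D)
    (hcl : ⁅Q, Q⁆ ≤ Subgroup.centralizer (Q : Set H))
    (hpow : ∀ g ∈ Q, g ^ s ∈ Subgroup.centralizer (Q : Set H))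
    (hXQ : X ≤ Subgroup.normalizer (Q : Set H)) (hDQ : D ≤ Subgroup.normalizer (Q : Set H))
    (hDZ : D ≤ Subgroup.centralizer ((Q ⊓ Subgroup.centralizer (Q : Set H) : Subgroup H) : Set H))
    (hXD : X ≤ Subgroup.normalizer (D : Set H)) {σ : H}
    (hσQ : σ ∈ Subgroup.normalizer (Q : Set H)) (hσX : σ ∈ Subgroup.normalizer (X : Set H))
    (hσD : σ ∈ Subgroup.normalizer (D : Set H)) {n : ℕ} (hσ : σ ^ 2 ^ (n + 1) = 1)
    (hsum : ∑ i ∈ Finset.range (2 ^ (n + 1)), ρ σ ^ i = 0)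
    (hgenX : X ≤ ⁅X, Subgroup.zpowers (σ ^ 2 ^ n)⁆) {a b : H} (ha : a ∈ X) (hb : b ∈ X)
    (hzX : ∀ g ∈ X, ⁅⁅a, b⁆, g⁆ ∈ Subgroup.centralizer (Q : Set H))
    (hzi : ∀ n', n = n' + 1 → ⁅⁅a, b⁆, σ ^ 2 ^ n'⁆ ∈ Subgroup.centralizer (Q : Set H))
    (l : centerImage ρ Q →* Kˣ) (hl : blk (centerImage ρ Q) l ≠ 0) :
    ∀ d ∈ D, ∀ g ∈ Q,
      ⁅g, ⁅d, ⁅a, b⁆⁆⁆ ∈ blockKer ρ Q (blk (centerImage ρ Q) l) (fun _ h => commute_blk_of_mem l h) := by
  classical
  haveI : Fact (Nat.Prime 2) := ⟨Nat.prime_two⟩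
  have hs : s.Prime := Fact.out
  haveI := hQ.isNilpotent
  have hQsol : Group.IsSolvable Q := inferInstance
  obtain ⟨jQ, hjQ⟩ := IsPGroup.iff_card.1 hQ
  have hA := card_centerImage_ne_zero (ρ := ρ) hQ hsK
  have hrel : σ ^ 2 ^ (n + 1) = 1 ∧ ∑ i ∈ Finset.range (2 ^ (n + 1)), ρ σ ^ i = 0 := ⟨hσ, hsum⟩
  set τ := σ ^ 2 ^ n with hτ
  have hττ : τ * τ = 1 := by rw [hτ, ← pow_add, ← two_mul, ← pow_succ', hσ]
  have hτQ : τ ∈ Subgroup.normalizer (Q : Set H) := Subgroup.pow_mem _ hσQ _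
  have hτe : ∀ l : centerImage ρ Q →* Kˣ, Commute (ρ τ) (blk (centerImage ρ Q) l) := fun l => by
    by_cases h0 : blk (centerImage ρ Q) l = 0
    · rw [h0]; exact Commute.zero_right _
    · exact pow_commute_blk hQ hsK hσQ hrel h0
  set e := blk (centerImage ρ Q) l with he
  have hee : e * e = e := by rw [he, blk_mul_blk _ hA, if_pos rfl]
  have hQe : ∀ g ∈ Q, Commute (ρ g) e := fun g hg => commute_blk_of_mem l hg
  have hsc : ∀ a ∈ Q, ∀ b ∈ Q, ∃ c : K, ρ (a * b * a⁻¹ * b⁻¹) * e = c • e :=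
    fun a ha b hb => scalar_commutators hcl l ha hb
  have hDe : ∀ d ∈ D, Commute (ρ d) e := by
    intro d hd
    refine commute_blk _ (fun a => ?_) l
    obtain ⟨z, hz, hza⟩ := a.2
    rw [← hza]
    show ρ d * ρ z = ρ z * ρ d
    rw [← map_mul, ← map_mul, Subgroup.mem_centralizer_iff.1 (hDZ hd) z hz]
  have hXe : X ≤ blockStab ρ e := by
    refine hgenX.trans (commutator_zpowers_le (hτe l) fun g hg => ?_)
    obtain ⟨l', hl'⟩ := exists_conj_blk (ρ := ρ) l (hXQ hg)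
    exact conj_mem_blockStab hl' (hτe l')
  set A := D ⊔ X ⊔ Subgroup.zpowers σ with hAdef
  have hAQ : A ≤ Subgroup.normalizer (Q : Set H) :=
    sup_le (sup_le hDQ hXQ) (Subgroup.zpowers_le.2 hσQ)
  obtain ⟨t, htn, hcom, c', hc', hrel'⟩ := exists_block_relation_pow hQ hsK hσQ hrel hl
  obtain ⟨k, hk⟩ : ∃ k, n = t + k := ⟨n - t, by omega⟩
  set Se := blockKer ρ Q e hQe with hSeDef
  have hSQ' : ⁅Q, Q⁆ ≤ Se := commutator_le_blockKer hsc
  haveI hSn : (Se.subgroupOf Q).Normal := ⟨fun x hx y => by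
    show (y : H) * x * (y : H)⁻¹ ∈ Se
    rw [show (y : H) * x * (y : H)⁻¹ = ⁅(y : H), (x : H)⁆ * x by simp [commutatorElement_def, mul_assoc]]
    exact Se.mul_mem (hSQ' (Subgroup.commutator_mem_commutator y.2 x.2)) hx⟩
  have hMcomm : ∀ a b : Q ⧸ Se.subgroupOf Q, a * b = b * a := fun a b => by
    induction a using QuotientGroup.induction_on with | _ a =>
    induction b using QuotientGroup.induction_on with | _ b =>
    rw [← QuotientGroup.mk_mul, ← QuotientGroup.mk_mul, QuotientGroup.eq]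
    refine hSQ' ?_
    have h := Subgroup.commutator_mem_commutator (Q.inv_mem b.2) (Q.inv_mem a.2)
    simpa [commutatorElement_def, mul_assoc] using h
  letI : CommGroup (Q ⧸ Se.subgroupOf Q) :=
    { (inferInstance : Group (Q ⧸ Se.subgroupOf Q)) with mul_comm := hMcomm }
  let mk : Q → Additive (Q ⧸ Se.subgroupOf Q) := fun g => Additive.ofMul (g : Q ⧸ Se.subgroupOf Q)
  have hmks : Function.Surjective mk := fun m => by
    obtain ⟨g, hg⟩ := QuotientGroup.mk_surjective (Additive.toMul m)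
    exact ⟨g, congrArg Additive.ofMul hg⟩
  let R : Subgroup H :=
    { carrier := {r | r ∈ A ∧ Commute (ρ r) e}
      one_mem' := ⟨A.one_mem, by rw [map_one]; exact Commute.one_left e⟩
      mul_mem' := fun {x y} hx hy => ⟨A.mul_mem hx.1 hy.1, by rw [map_mul]; exact hx.2.mul_left hy.2⟩
      inv_mem' := fun {x} hx => ⟨A.inv_mem hx.1, commute_inv hx.2⟩ }
  have hDR : D ≤ R := fun d hd => ⟨Subgroup.mem_sup_left (Subgroup.mem_sup_left hd), hDe d hd⟩
  have hXR : X ≤ R := fun x hx => ⟨Subgroup.mem_sup_left (Subgroup.mem_sup_right hx), hXe hx⟩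
  have hσmem : ∀ i, 2 ^ t ∣ i → σ ^ i ∈ R := fun i hi =>
    ⟨A.pow_mem (Subgroup.mem_sup_right (Subgroup.mem_zpowers σ)) i, by
      obtain ⟨a, rfl⟩ := hi
      rw [pow_mul, map_pow]
      exact hcom.pow_left a⟩
  have hτR : τ ∈ R := hσmem _ (pow_dvd_pow 2 htn)
  let cj : R → MulAut Q := fun r => Subgroup.normalizerMonoidHom Q ⟨r, hAQ r.2.1⟩
  have hcj : ∀ (r : R) (g : Q), ((cj r g : Q) : H) = r * g * (r : H)⁻¹ := fun _ _ => rfl
  let act : R → AddMonoid.End (Additive (Q ⧸ Se.subgroupOf Q)) := fun r =>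
    MonoidHom.toAdditive (QuotientGroup.map _ (Se.subgroupOf Q) (cj r).toMonoidHom (fun x hx =>
      show ((cj r x : Q) : H) ∈ Se from
        (Subgroup.mem_normalizer_iff.1 (blockKer_normalizer (hAQ r.2.1) r.2.2) _).1 hx))
  have hact : ∀ r g, act r (mk g) = mk (cj r g) := fun r g => rfl
  let φ : R →* AddMonoid.End (Additive (Q ⧸ Se.subgroupOf Q)) :=
    { toFun := act
      map_one' := AddMonoidHom.ext fun m => by
        obtain ⟨g, rfl⟩ := hmks m
        refine (hact 1 g).trans (congrArg mk (Subtype.ext ?_))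
        rw [hcj]; simp
      map_mul' := fun r r' => AddMonoidHom.ext fun m => by
        obtain ⟨g, rfl⟩ := hmks m
        refine (hact (r * r') g).trans ?_
        show _ = act r (act r' (mk g))
        rw [hact, hact]
        refine congrArg mk (Subtype.ext ?_)
        rw [hcj, hcj, hcj]
        simp [mul_assoc] }
  have hφ : ∀ r g, φ r (mk g) = mk (cj r g) := hact
  have hfixc : ∀ (r : R), (r : H) ∈ Subgroup.centralizer (Q : Set H) → φ r = 1 := fun r hr => by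
    refine end_eq_one_iff.2 fun x => ?_
    obtain ⟨g, rfl⟩ := hmks x
    rw [hφ]
    refine congrArg mk (Subtype.ext ?_)
    rw [hcj, ← Subgroup.mem_centralizer_iff.1 hr g g.2, mul_inv_cancel_right]
  set zR : R := ⟨⁅a, b⁆, hXR (Subgroup.commutator_le_self X
    (Subgroup.commutator_mem_commutator ha hb))⟩ with hzR
  suffices hker : ∀ d (hd : d ∈ D), φ ⁅(⟨d, hDR hd⟩ : R), zR⁆ = 1 by
    intro d hd g hg
    have h := end_eq_one_iff.1 (hker d hd) (mk ⟨g⁻¹, Q.inv_mem hg⟩)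
    rw [hφ] at h
    have h2 : (g⁻¹)⁻¹ * (⁅d, ⁅a, b⁆⁆ * g⁻¹ * ⁅d, ⁅a, b⁆⁆⁻¹) ∈ Se :=
      (QuotientGroup.eq (s := Se.subgroupOf Q) (a := (⟨g⁻¹, Q.inv_mem hg⟩ : Q))).1
        (congrArg Additive.toMul h.symm)
    rw [inv_inv] at h2
    rw [commutatorElement_def g, mul_assoc, mul_assoc, ← mul_assoc ⁅d, ⁅a, b⁆⁆]
    exact h2
  set Q0 := ⁅Q, Subgroup.zpowers τ⁆ with hQ0
  have hzN : Subgroup.zpowers τ ≤ Subgroup.normalizer (Q : Set H) := Subgroup.zpowers_le.2 hτQ
  have hQ0Q : Q0 ≤ Q := commutator_le_left hzN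
  have hcopτ : (Nat.card (Subgroup.zpowers τ)).Coprime (Nat.card Q) := by
    rw [Nat.card_zpowers, hjQ]
    exact Nat.Coprime.coprime_dvd_left (orderOf_dvd_of_pow_eq_one (n := 2) (by rw [pow_two, hττ]))
      (((Nat.coprime_primes Nat.prime_two hs).2 (Ne.symm hs2)).pow_right jQ)
  have hQ0e : ∀ g ∈ Q0, Commute (ρ g) e := fun g hg => hQe g (hQ0Q hg)
  have hy'Q0 : σ ^ 2 ^ t ∈ Subgroup.normalizer (Q0 : Set H) := by
    rw [← conj_smul_eq_self]
    show Subgroup.map (MulAut.conj _).toMonoidHom _ = _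
    rw [hQ0, Subgroup.map_commutator]
    congr 1
    · exact conj_smul_eq_self.2 (Subgroup.pow_mem _ hσQ _)
    · rw [MonoidHom.map_zpowers]
      congr 1
      show σ ^ 2 ^ t * σ ^ 2 ^ n * (σ ^ 2 ^ t)⁻¹ = σ ^ 2 ^ n
      rw [← pow_add, add_comm, pow_add, mul_inv_cancel_right]
  have hdisp : ∀ m, disp φ ⟨τ, hτR⟩ m ∈ mk '' {g : Q | (g : H) ∈ Q0} := by
    intro m
    obtain ⟨a, rfl⟩ := hmks m
    refine ⟨cj ⟨τ, hτR⟩ a * a⁻¹, ?_, ?_⟩
    · show τ * (a : H) * τ⁻¹ * (a : H)⁻¹ ∈ Q0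
      rw [← commutatorElement_def, ← commutatorElement_inv]
      exact Q0.inv_mem (Subgroup.commutator_mem_commutator a.2 (Subgroup.mem_zpowers τ))
    · rw [disp_apply, hφ, sub_eq_add_neg]; rfl
  rcases block_dichotomy (p := 2) (e := e) (k := k + 1) hsK (hQ.to_le hQ0Q) hee hQ0e hy'Q0 hcom
      (fun a ha b hb => hsc a (hQ0Q ha) b (hQ0Q hb)) (Nat.le_add_left 1 k)
      (by rw [← pow_mul, ← pow_add, show t + (k + 1) = n + 1 by omega, hσ])
      (by
        rw [Nat.add_sub_cancel, ← pow_mul, ← pow_add, ← hk, ← hτ, hQ0,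
          commutator_commutator_eq hzN hcopτ (Or.inr hQsol)])
      (s := (2 ^ (n + 1) - 1) / 2 ^ t)
      (by
        rw [Nat.div_lt_iff_lt_mul (pow_pos two_pos _), ← pow_add, show k + 1 + t = n + 1 by omega]
        exact Nat.sub_lt (pow_pos two_pos _) one_pos)
      hc' hrel' with htriv | ⟨j, m, hjk, hm, hjm, -, hidx⟩
  · -- the involution is trivial on the quotient
    have hτ1 : φ ⟨τ, hτR⟩ = 1 := by
      refine end_eq_one_iff.2 fun x => sub_eq_zero.1 ?_
      obtain ⟨g, hg, hgm⟩ := hdisp x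
      rw [← disp_apply φ, ← hgm]
      refine congrArg Additive.ofMul ((QuotientGroup.eq_one_iff g).2 ⟨g.2, fun b hb => ?_⟩)
      show ρ (g : H) * ρ b * e = ρ b * ρ (g : H) * e
      rw [mul_assoc, (hQe b hb).eq, ← mul_assoc, htriv _ hg, mul_assoc (ρ b), htriv _ hg,
        (hQe b hb).eq]
    intro d hd
    have hz1 : φ zR = 1 := by
      have hle : ⁅X, Subgroup.zpowers τ⁆ ≤ φ.ker.map R.subtype := by
        refine commutator_zpowers_le ⟨⟨τ, hτR⟩, hτ1, rfl⟩ fun g hg =>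
          ⟨⟨g, hXR hg⟩ * ⟨τ, hτR⟩ * (⟨g, hXR hg⟩ : R)⁻¹, ?_, rfl⟩
        rw [SetLike.mem_coe, MonoidHom.mem_ker, map_mul, map_mul, hτ1, mul_one, ← map_mul,
          mul_inv_cancel, map_one]
      obtain ⟨r, hr, hr'⟩ := hle (hgenX (Subgroup.commutator_le_self X
        (Subgroup.commutator_mem_commutator ha hb)))
      rw [show zR = r from Subtype.ext hr'.symm]
      exact hr
    exact MonoidHom.mem_ker.1 (φ.ker.mul_mem ((inferInstance : φ.ker.Normal).conj_mem _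
      (MonoidHom.mem_ker.2 hz1) _) (φ.ker.inv_mem (MonoidHom.mem_ker.2 hz1)))
  obtain ⟨hm1, hj2, hqj⟩ := mersenne_of_pow_sub_one hs hs2 hm hjm
  obtain ⟨n', rfl⟩ : ∃ n', n = n' + 1 := ⟨n - 1, by omega⟩
  have hiR : σ ^ 2 ^ n' ∈ R := hσmem _ (pow_dvd_pow 2 (by omega))
  have hii : (⟨σ ^ 2 ^ n', hiR⟩ : R) * ⟨σ ^ 2 ^ n', hiR⟩ = ⟨τ, hτR⟩ := Subtype.ext (by
    show σ ^ 2 ^ n' * σ ^ 2 ^ n' = σ ^ 2 ^ (n' + 1)
    rw [← pow_add, ← two_mul, ← pow_succ'])
  have htors : ∀ x : Additive (Q ⧸ Se.subgroupOf Q), s • x = 0 := fun x => by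
    obtain ⟨g, rfl⟩ := hmks x
    refine congrArg Additive.ofMul ((QuotientGroup.mk_pow (Se.subgroupOf Q) g s).symm.trans
      ((QuotientGroup.eq_one_iff (g ^ s)).2 ⟨(g ^ s).2, fun b hb => ?_⟩))
    rw [← map_mul, ← map_mul]
    refine congrArg (fun x => ρ x * e) ?_
    show (g : H) ^ s * b = b * (g : H) ^ s
    exact (Subgroup.mem_centralizer_iff.1 (hpow g g.2) b hb).symm
  -- the commutator form
  let ζ : (Q ⊓ Subgroup.centralizer (Q : Set H) : Subgroup H) →* Kˣ :=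
    l.comp ((ρ.toHomUnits.comp (Q ⊓ Subgroup.centralizer (Q : Set H) : Subgroup H).subtype).codRestrict
      (centerImage ρ Q) (fun g => Subgroup.mem_map_of_mem ρ.toHomUnits g.2))
  have hζ : ∀ g : (Q ⊓ Subgroup.centralizer (Q : Set H) : Subgroup H),
      ρ g * e = (ζ g : K) • e := fun g =>
    mul_blk (centerImage ρ Q) l ⟨_, Subgroup.mem_map_of_mem ρ.toHomUnits g.2⟩
  have hcmem : ∀ a b : Q, ⁅(a : H), (b : H)⁆ ∈ Q ⊓ Subgroup.centralizer (Q : Set H) := fun a b =>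
    ⟨Subgroup.commutator_le_self Q (Subgroup.commutator_mem_commutator a.2 b.2),
      hcl (Subgroup.commutator_mem_commutator a.2 b.2)⟩
  let χ : Q → Q → Kˣ := fun a b => ζ ⟨_, hcmem a b⟩
  have hχskew : ∀ a b, χ a b = (χ b a)⁻¹ := fun a b => by
    rw [← map_inv]
    exact congrArg ζ (Subtype.ext (commutatorElement_inv (b : H) (a : H)).symm)
  have hχmul : ∀ a a' b, χ (a * a') b = χ a b * χ a' b := fun a a' b => by
    rw [← map_mul]
    exact congrArg ζ (Subtype.ext (commutator_mul_left_of_central hcl a.2 a'.2 b.2))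
  have hχmul' : ∀ a b b', χ a (b * b') = χ a b * χ a b' := fun a b b' => by
    rw [hχskew, hχmul, mul_inv, ← hχskew, ← hχskew]
  have hχker : ∀ a : Q, (∀ b, χ a b = 1) ↔ (a : H) ∈ Se := by
    intro a
    constructor
    · intro h
      refine ⟨a.2, fun b hb => (mul_eq_iff_commutator hQe a.2 hb).2 ?_⟩
      rw [show ρ ⁅(a : H), b⁆ * e = _ from hζ ⟨_, hcmem a ⟨b, hb⟩⟩,
        show ζ ⟨_, hcmem a ⟨b, hb⟩⟩ = 1 from h ⟨b, hb⟩, Units.val_one, one_smul]
    · intro h b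
      have h1 := (mul_eq_iff_commutator hQe a.2 b.2).1 (h.2 b b.2)
      rw [show ρ ⁅(a : H), (b : H)⁆ * e = _ from hζ ⟨_, hcmem a b⟩] at h1
      nth_rw 2 [← one_smul K e] at h1
      exact Units.ext ((smul_left_injective K hl) h1)
  let β : Q →* (Q →* Kˣ) := MonoidHom.mk' (fun a => MonoidHom.mk' (χ a) (hχmul' a))
    (fun a a' => MonoidHom.ext fun b => hχmul a a' b)
  have hβ : Se.subgroupOf Q ≤ β.ker := fun a ha => MonoidHom.mem_ker.2 (MonoidHom.ext fun b =>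
    (hχker a).2 ha b)
  let β₁ : (Q ⧸ Se.subgroupOf Q) →* (Q →* Kˣ) := QuotientGroup.lift _ β hβ
  have hβ₁ : Se.subgroupOf Q ≤ β₁.flip.ker := fun b hb => MonoidHom.mem_ker.2 (MonoidHom.ext fun x => by
    induction x using QuotientGroup.induction_on with | _ a =>
    show χ a b = 1
    rw [hχskew, (hχker b).2 hb a, inv_one])
  let β₂ : (Q ⧸ Se.subgroupOf Q) →* ((Q ⧸ Se.subgroupOf Q) →* Kˣ) := QuotientGroup.lift _ β₁.flip hβ₁
  let B : Additive (Q ⧸ Se.subgroupOf Q) →+ Additive (Q ⧸ Se.subgroupOf Q) →+ Additive Kˣ :=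
    AddMonoidHom.mk' (fun x => (β₂ (Additive.toMul x)).toAdditive)
      (fun x y => AddMonoidHom.ext fun z => by
        show Additive.ofMul (β₂ (Additive.toMul (x + y)) (Additive.toMul z)) = _
        rw [toMul_add, map_mul]
        rfl)
  have hBmk : ∀ a b : Q, B (mk a) (mk b) = Additive.ofMul (χ b a) := fun a b => rfl
  let R' := φ.toHomUnits.range
  let ψ : R' →* AddMonoid.End (Additive (Q ⧸ Se.subgroupOf Q)) :=
    (Units.coeHom _).comp R'.subtype
  let f : R →* R' := φ.toHomUnits.rangeRestrict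
  have hψ : ∀ r : R, ψ (f r) = φ r := fun r => rfl
  have hψinj : Function.Injective ψ := fun a b h => Subtype.ext (Units.ext h)
  haveI : Finite R' := Finite.of_surjective f φ.toHomUnits.rangeRestrict_surjective
  set i' : R' := f ⟨σ ^ 2 ^ n', hiR⟩ with hi'
  have hτ' : i' * i' = f ⟨τ, hτR⟩ := by rw [hi', ← map_mul, hii]
  have hdata : PairData s ψ B i' := by
    refine ⟨htors, fun x => ?_, fun x hx => ?_, fun r a b => ?_, hψinj, ?_, ⟨j, hj2, hqj⟩, ?_⟩
    · obtain ⟨g, rfl⟩ := hmks x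
      rw [hBmk]
      have h1 : (⟨_, hcmem g g⟩ : (Q ⊓ Subgroup.centralizer (Q : Set H) : Subgroup H)) = 1 :=
        Subtype.ext (commutatorElement_self _)
      show Additive.ofMul (ζ ⟨_, hcmem g g⟩) = 0
      rw [h1, map_one]
      rfl
    · obtain ⟨g, rfl⟩ := hmks x
      refine congrArg Additive.ofMul ((QuotientGroup.eq_one_iff g).2 ((hχker g).1 fun b => ?_))
      have h1 := hx (mk b)
      rw [hBmk] at h1
      rw [hχskew, show χ b g = 1 from congrArg Additive.toMul h1, inv_one]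
    · obtain ⟨r, rfl⟩ : ∃ r0, f r0 = r := φ.toHomUnits.rangeRestrict_surjective r
      obtain ⟨a, rfl⟩ := hmks a
      obtain ⟨b, rfl⟩ := hmks b
      rw [hψ, hφ, hφ, hBmk, hBmk]
      refine congrArg Additive.ofMul (Units.ext ?_)
      refine smul_left_injective K hl ?_
      show (ζ ⟨_, hcmem (cj r b) (cj r a)⟩ : K) • e = (ζ ⟨_, hcmem b a⟩ : K) • e
      rw [← hζ, ← hζ]
      show ρ ⁅((cj r b : Q) : H), ((cj r a : Q) : H)⁆ * e = ρ ⁅(b : H), (a : H)⁆ * e
      rw [hcj, hcj, ← conjugate_commutatorElement, map_mul, map_mul, mul_assoc,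
        (commute_inv r.2.2).eq, mul_assoc, ← mul_assoc (ρ ⁅(b : H), (a : H)⁆),
        show ρ ⁅(b : H), (a : H)⁆ * e = _ from hζ ⟨_, hcmem b a⟩, smul_mul_assoc, mul_smul_comm,
        ← mul_assoc, r.2.2.eq, mul_assoc, (rho_mul_inv (r : H)).1, mul_one]
    · rw [hτ', ← map_mul, show (⟨τ, hτR⟩ : R) * ⟨τ, hτR⟩ = 1 from Subtype.ext hττ, map_one]
    · rw [hτ']
      have hker0 := blockKer_commutator_le hQe hcl hsc hQsol hτQ (hτe l) hcopτ hQ0e
      rw [hm1, Nat.mul_one] at hidx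
      rw [← hidx, Subgroup.relIndex, Subgroup.index_eq_card]
      have hfq : ∀ a b : Q0, (a : H)⁻¹ * b ∈ blockKer ρ Q0 e hQ0e →
          mk ⟨a, hQ0Q a.2⟩ = mk ⟨b, hQ0Q b.2⟩ := fun a b h =>
        congrArg Additive.ofMul (QuotientGroup.eq.2 (hker0 h))
      let g₀ : Q0 ⧸ (blockKer ρ Q0 e hQ0e).subgroupOf Q0 → Additive (Q ⧸ Se.subgroupOf Q) :=
        fun x => Quotient.liftOn' x (fun a => mk ⟨a, hQ0Q a.2⟩) fun a b h =>
          hfq a b (Subgroup.mem_subgroupOf.1 ((QuotientGroup.leftRel_apply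
            (s := (blockKer ρ Q0 e hQ0e).subgroupOf Q0)).1 h))
      have hsub : ∀ x : (disp ψ (f ⟨τ, hτR⟩)).range,
          (x : Additive (Q ⧸ Se.subgroupOf Q)) ∈ Set.range g₀ := by
        rintro ⟨_, y, rfl⟩
        obtain ⟨g, hg, hgm⟩ := hdisp y
        exact ⟨QuotientGroup.mk ⟨g, hg⟩, hgm⟩
      choose r hr using hsub
      exact Nat.card_le_card_of_injective r fun a b h => Subtype.ext (by rw [← hr a, h, hr b])
  letI : Module (ZMod s) (Additive (Q ⧸ Se.subgroupOf Q)) := AddCommGroup.zmodModule htors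

  set X' := (X.subgroupOf R).map f with hX'
  set D' := (D.subgroupOf R).map f with hD'
  have hi : ∀ T : Subgroup H, σ ∈ Subgroup.normalizer (T : Set H) →
      i' ∈ Subgroup.normalizer ((T.subgroupOf R).map f : Set R') := by
    intro T hT
    refine Subgroup.le_normalizer_map f (Subgroup.mem_map_of_mem f ?_)
    rw [Subgroup.mem_normalizer_iff]
    intro x
    simp only [Subgroup.mem_subgroupOf, Subgroup.coe_mul, Subgroup.coe_inv]
    exact Subgroup.mem_normalizer_iff.1 (Subgroup.pow_mem _ hT _) (x : H)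
  have hXD' : X' ≤ Subgroup.normalizer (D' : Set R') := by
    refine (Subgroup.map_mono fun x hx => ?_).trans (Subgroup.le_normalizer_map f)
    rw [Subgroup.mem_normalizer_iff]
    intro y
    simp only [Subgroup.mem_subgroupOf, Subgroup.coe_mul, Subgroup.coe_inv]
    exact Subgroup.mem_normalizer_iff.1 (hXD hx) (y : H)
  have hgenX' : X' ≤ ⁅X', Subgroup.zpowers (i' * i')⁆ := by
    rw [hτ', hX', ← MonoidHom.map_zpowers, ← Subgroup.map_commutator]
    refine Subgroup.map_mono ((Subgroup.map_le_map_iff_of_injective R.subtype_injective).1 ?_)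
    rw [Subgroup.map_commutator, MonoidHom.map_zpowers, Subgroup.map_subgroupOf_eq_of_le hXR]
    exact hgenX
  have hcomm1 : ∀ r r' : R, φ ⁅r, r'⁆ = 1 → f r * f r' = f r' * f r := fun r r' h => by
    rw [← commutatorElement_eq_one_iff_mul_comm, ← map_commutatorElement]
    exact hψinj ((hψ _).trans (h.trans (map_one ψ).symm))
  have hfz : f zR = ⁅f ⟨a, hXR ha⟩, f ⟨b, hXR hb⟩⁆ := by
    rw [← map_commutatorElement]
    refine congrArg f (Subtype.ext ?_)
    exact (map_commutatorElement R.subtype ⟨a, hXR ha⟩ ⟨b, hXR hb⟩).symm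
  intro d hd
  have key := commute_twoGroup (X := X') (P := D') hdata
    ((hX.of_equiv (Subgroup.subgroupOfEquivOfLe hXR).symm).map f)
    ((hD.of_equiv (Subgroup.subgroupOfEquivOfLe hDR).symm).map f)
    (hi X hσX) (hi D hσD) hXD' hgenX'
    (a := f ⟨a, hXR ha⟩) (b := f ⟨b, hXR hb⟩) ⟨_, ha, rfl⟩ ⟨_, hb, rfl⟩
    (by
      rintro _ ⟨g, hg, rfl⟩
      rw [← hfz]
      exact hcomm1 _ _ (hfixc _ (hzX g hg)))
    (by
      rw [← hfz, hi']
      exact hcomm1 _ _ (hfixc _ (hzi n' rfl)))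
    (f ⟨d, hDR hd⟩) ⟨_, hd, rfl⟩
  rw [← hfz] at key
  rw [← hψ, map_commutatorElement f, commutatorElement_eq_one_iff_mul_comm.2 key.symm, map_one]

end CfsgLib.GrossTwoLength
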