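/-
A nontrivial central commutator commuting with an element of order four modulo the square, in a
group moved by the involution of a cyclic `2`-group satisfying the fixed-point-free relation.
-/
import Mathlib
import Cfsg.Agent.Lib.HallHigmanExc.GrossConfig
import Cfsg.Agent.Lib.GrossTwoLength.PairCommute

set_option autoImplicit false
set_option linter.style.haveILetI false
set_option linter.unusedSectionVars false

open scoped commutatorElement

namespace CfsgLib.GrossTwoLength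

open CfsgLib.HallHigmanExc CfsgLib.CoprimeAction

universe u v w

variable {K : Type u} [Field K] {V : Type v} [AddCommGroup V] [Module K V]

/-- The normalizer of a subgroup normalizes its centre. -/
theorem mem_normalizer_center {G : Type w} [Group G] [Finite G] {Q : Subgroup G} {x : G}
    (hx : x ∈ Subgroup.normalizer (Q : Set G)) :
    x ∈ Subgroup.normalizer ((Q ⊓ Subgroup.centralizer (Q : Set G) : Subgroup G) : Set G) := by
  refine mem_normalizer_of_conj_mem ?_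
  rintro g ⟨hg, hgc⟩
  refine ⟨(Subgroup.mem_normalizer_iff.1 hx g).1 hg, ?_⟩
  refine Subgroup.mem_centralizer_iff.2 fun b hb => ?_
  have hb' : x⁻¹ * b * x ∈ Q := by
    have := (Subgroup.mem_normalizer_iff.1 ((Subgroup.normalizer (Q : Set G)).inv_mem hx) b).1 hb
    simpa using this
  have h := Subgroup.mem_centralizer_iff.1 hgc _ hb'
  calc b * (x * g * x⁻¹) = x * (x⁻¹ * b * x * g) * x⁻¹ := by group
    _ = x * (g * (x⁻¹ * b * x)) * x⁻¹ := by rw [h]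
    _ = _ := by group

set_option maxHeartbeats 1000000 in
theorem exists_central_element [IsAlgClosed K] [FiniteDimensional K V] {G : Type w} [Group G]
    [Finite G] {ρ : G →* Module.End K V} (hρ : Function.Injective ρ) {s : ℕ} [Fact s.Prime]
    (hs2 : s ≠ 2) (hsK : (s : K) ≠ 0) {X : Subgroup G} (hX : IsPGroup s X)
    (hcl : ⁅X, X⁆ ≤ Subgroup.centralizer (X : Set G)) {y : G}
    (hy : y ∈ Subgroup.normalizer (X : Set G)) {n : ℕ} (hyn : y ^ 2 ^ (n + 1) = 1)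
    (hsum : ∑ i ∈ Finset.range (2 ^ (n + 1)), ρ y ^ i = 0)
    (hgen : X ≤ ⁅X, Subgroup.zpowers (y ^ 2 ^ n)⁆) (hne : X ≠ ⊥) :
    ∃ n', n = n' + 1 ∧ ∃ g ∈ X, ⁅g, y ^ 2 ^ n' * g * (y ^ 2 ^ n')⁻¹⁆ ≠ 1 ∧
      (∀ x ∈ X, ⁅g, y ^ 2 ^ n' * g * (y ^ 2 ^ n')⁻¹⁆ * x =
        x * ⁅g, y ^ 2 ^ n' * g * (y ^ 2 ^ n')⁻¹⁆) ∧
      ⁅g, y ^ 2 ^ n' * g * (y ^ 2 ^ n')⁻¹⁆ * y ^ 2 ^ n' =
        y ^ 2 ^ n' * ⁅g, y ^ 2 ^ n' * g * (y ^ 2 ^ n')⁻¹⁆ := by
  classical
  haveI : Fact (Nat.Prime 2) := ⟨Nat.prime_two⟩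
  have hs : s.Prime := Fact.out
  have hrel : y ^ 2 ^ (n + 1) = 1 ∧ ∑ i ∈ Finset.range (2 ^ (n + 1)), ρ y ^ i = 0 := ⟨hyn, hsum⟩
  set τ := y ^ 2 ^ n with hτ
  have hττ : τ * τ = 1 := by rw [hτ, ← pow_add, ← two_mul, ← pow_succ', hyn]
  have hτX : τ ∈ Subgroup.normalizer (X : Set G) := Subgroup.pow_mem _ hy _
  have hA := card_centerImage_ne_zero (ρ := ρ) hX hsK
  -- a block with noncommutative action
  obtain ⟨l, hl, hnab⟩ : ∃ l : centerImage ρ X →* Kˣ, blk (centerImage ρ X) l ≠ 0 ∧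
      ¬ (∀ a ∈ X, ∀ b ∈ X, ρ a * ρ b * blk (centerImage ρ X) l =
        ρ b * ρ a * blk (centerImage ρ X) l) := by
    by_contra hcon
    push Not at hcon
    refine hne (eq_bot_of_blocks hX hsK hρ hgen (fun l hl d hd => ?_) hcon)
    exact (Subgroup.zpowers_le.2 (show τ ∈ blockStab ρ (blk (centerImage ρ X) l) from
      pow_commute_blk hX hsK hy hrel hl)) hd
  set e := blk (centerImage ρ X) l with he
  have hee : e * e = e := by rw [he, blk_mul_blk _ hA, if_pos rfl]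
  have hXe : ∀ g ∈ X, Commute (ρ g) e := fun g hg => commute_blk_of_mem l hg
  obtain ⟨t, htn, hcom, c', hc', hrel'⟩ := exists_block_relation_pow hX hsK hy hrel hl
  obtain ⟨k, hk⟩ : ∃ k, n = t + k := ⟨n - t, by omega⟩
  rcases block_dichotomy (p := 2) (e := e) (k := k + 1) hsK hX hee hXe (Subgroup.pow_mem _ hy (2 ^ t))
      hcom (fun a ha b hb => scalar_commutators hcl l ha hb) (Nat.le_add_left 1 k)
      (by rw [← pow_mul, ← pow_add, show t + (k + 1) = n + 1 by omega, hyn])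
      (by rw [Nat.add_sub_cancel, ← pow_mul, ← pow_add, ← hk, ← hτ]; exact hgen)
      (s := (2 ^ (n + 1) - 1) / 2 ^ t)
      (by
        rw [Nat.div_lt_iff_lt_mul (pow_pos two_pos _), ← pow_add, show k + 1 + t = n + 1 by omega]
        exact Nat.sub_lt (pow_pos two_pos _) one_pos)
      hc' hrel' with htriv | ⟨j, m, hjk, hm, hjm, -, -⟩
  · refine absurd (fun a ha b hb => ?_) hnab
    rw [mul_assoc, htriv b hb, htriv a ha, mul_assoc, htriv a ha, htriv b hb]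
  obtain ⟨-, hj2, -⟩ := mersenne_of_pow_sub_one hs hs2 hm hjm
  obtain ⟨n', rfl⟩ : ∃ n', n = n' + 1 := ⟨n - 1, by omega⟩
  refine ⟨n', rfl, ?_⟩
  set i := y ^ 2 ^ n' with hi
  have hii : i * i = τ := by rw [hi, hτ, ← pow_add, ← two_mul, ← pow_succ']
  have hie : Commute (ρ i) e := by
    rw [hi, show y ^ 2 ^ n' = (y ^ 2 ^ t) ^ 2 ^ (n' - t) by
      rw [← pow_mul, ← pow_add]; congr 2; omega, map_pow]
    exact hcom.pow_left _
  have hiX : i ∈ Subgroup.normalizer (X : Set G) := Subgroup.pow_mem _ hy _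
  have hiX' : ∀ g ∈ X, i * g * i⁻¹ ∈ X := fun g hg => (Subgroup.mem_normalizer_iff.1 hiX g).1 hg
  set Z := X ⊓ Subgroup.centralizer (X : Set G) with hZ
  have hcomZ : ∀ a ∈ X, ∀ b ∈ X, ⁅a, b⁆ ∈ Z := fun a ha b hb =>
    ⟨Subgroup.commutator_le_self X (Subgroup.commutator_mem_commutator ha hb),
      hcl (Subgroup.commutator_mem_commutator ha hb)⟩
  have hZc : ∀ z ∈ Z, ∀ x ∈ X, z * x = x * z := fun z hz x hx =>
    (Subgroup.mem_centralizer_iff.1 hz.2 x hx).symm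
  -- the involution inverts modulo the centre
  have hinv : ∀ g ∈ X, g * (τ * g * τ⁻¹) ∈ Z := by
    intro g hg
    have hg' : τ * g * τ⁻¹ ∈ X := (Subgroup.mem_normalizer_iff.1 hτX g).1 hg
    refine mem_of_commutator_mem (Q := X) (S := Z) inf_le_left
      (Subgroup.commutator_le.2 hcomZ) hτX (mem_normalizer_center hτX) hgen (X.mul_mem hg hg') ?_
    have hinvτ : τ⁻¹ = τ := inv_eq_of_mul_eq_one_right hττ
    have e1 : (g * (τ * g * τ⁻¹))⁻¹ * (τ * (g * (τ * g * τ⁻¹)) * τ⁻¹) =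
        ⁅(τ * g * τ⁻¹)⁻¹, g⁻¹⁆ := by
      rw [commutatorElement_def]
      simp only [mul_inv_rev, inv_inv, hinvτ, mul_assoc]
      simp only [hττ, mul_one]
    rw [e1]
    exact hcomZ _ (X.inv_mem hg') _ (X.inv_mem hg)
  -- bilinearity
  have hmul : ∀ a ∈ X, ∀ b ∈ X, ∀ c ∈ X, ⁅a * b, c⁆ = ⁅a, c⁆ * ⁅b, c⁆ := fun a ha b hb c hc =>
    commutator_mul_left_of_central hcl ha hb hc
  have hmul' : ∀ a ∈ X, ∀ b ∈ X, ∀ c ∈ X, ⁅a, b * c⁆ = ⁅a, b⁆ * ⁅a, c⁆ := by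
    intro a ha b hb c hc
    rw [← commutatorElement_inv (b * c) a, hmul b hb c hc a ha, mul_inv_rev, commutatorElement_inv,
      commutatorElement_inv]
    exact hZc _ (hcomZ a ha c hc) _ (hcomZ a ha b hb).1
  -- some commutator is seen on the block
  let ζ : Z →* Kˣ :=
    l.comp ((ρ.toHomUnits.comp Z.subtype).codRestrict
      (centerImage ρ X) (fun g => Subgroup.mem_map_of_mem ρ.toHomUnits g.2))
  have hζ : ∀ g : Z, ρ g * e = (ζ g : K) • e := fun g =>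
    mul_blk (centerImage ρ X) l ⟨_, Subgroup.mem_map_of_mem ρ.toHomUnits g.2⟩
  let χ : X → X → Kˣ := fun a b => ζ ⟨_, hcomZ a a.2 b b.2⟩
  have hχskew : ∀ a b, χ a b = (χ b a)⁻¹ := fun a b => by
    rw [← map_inv]
    exact congrArg ζ (Subtype.ext (commutatorElement_inv (b : G) (a : G)).symm)
  have hχmul : ∀ a a' b, χ (a * a') b = χ a b * χ a' b := fun a a' b => by
    rw [← map_mul]
    exact congrArg ζ (Subtype.ext (hmul a a.2 a' a'.2 b b.2))
  have hχmul' : ∀ a b b', χ a (b * b') = χ a b * χ a b' := fun a b b' => by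
    rw [← map_mul]
    exact congrArg ζ (Subtype.ext (hmul' a a.2 b b.2 b' b'.2))
  let T : X → X := fun a => ⟨i * a * i⁻¹, hiX' a a.2⟩
  have hχT : ∀ a b, χ (T a) (T b) = χ a b := by
    intro a b
    refine Units.ext (smul_left_injective K hl ?_)
    show (χ (T a) (T b) : K) • e = (χ a b : K) • e
    rw [← hζ, ← hζ]
    show ρ ⁅i * (a : G) * i⁻¹, i * (b : G) * i⁻¹⁆ * e = ρ ⁅(a : G), (b : G)⁆ * e
    rw [← conjugate_commutatorElement, map_mul, map_mul, mul_assoc, (commute_inv hie).eq, mul_assoc,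
      ← mul_assoc (ρ ⁅(a : G), (b : G)⁆), show ρ ⁅(a : G), (b : G)⁆ * e = _ from hζ ⟨_, hcomZ a a.2 b b.2⟩,
      smul_mul_assoc, mul_smul_comm, ← mul_assoc, hie.eq, mul_assoc, (rho_mul_inv i).1, mul_one]
  obtain ⟨g, hg, hgne⟩ : ∃ g : X, χ g (T g) ≠ 1 ∧ (g : G) ∈ X := by
    by_contra hcon
    push Not at hcon
    have hall : ∀ a : X, χ a (T a) = 1 := fun a => by
      by_contra h
      exact hcon a h a.2
    refine hnab fun a ha b hb => (mul_eq_iff_commutator hXe ha hb).2 ?_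
    suffices h1 : χ ⟨a, ha⟩ ⟨b, hb⟩ = 1 by
      rw [show ρ ⁅a, b⁆ * e = _ from hζ ⟨_, hcomZ a ha b hb⟩,
        show ζ ⟨_, hcomZ a ha b hb⟩ = 1 from h1, Units.val_one, one_smul]
    have hTmul : ∀ a b : X, T (a * b) = T a * T b := fun a b => Subtype.ext (by
      show i * ((a : G) * b) * i⁻¹ = i * a * i⁻¹ * (i * b * i⁻¹)
      group)
    have hsym : ∀ a b : X, χ a (T b) = χ (T a) b := by
      intro a b
      have h := hall (a * b)
      rw [hTmul, hχmul, hχmul', hχmul', hall a, hall b, one_mul, mul_one] at h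
      rw [hχskew (T a) b]
      exact eq_inv_of_mul_eq_one_left h
    set b' : X := ⟨τ * b * τ⁻¹, (Subgroup.mem_normalizer_iff.1 hτX b).1 hb⟩ with hb'
    have hTT : T (T ⟨b, hb⟩) = b' := Subtype.ext (by
      show i * (i * b * i⁻¹) * i⁻¹ = τ * b * τ⁻¹
      rw [← hii]; group)
    have h2 : χ ⟨a, ha⟩ b' = χ ⟨a, ha⟩ ⟨b, hb⟩ := by rw [← hTT, hsym, hχT]
    have h3 : χ ⟨a, ha⟩ (⟨b, hb⟩ * b') = 1 := by
      rw [← map_one ζ]
      refine congrArg ζ (Subtype.ext ?_)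
      show ⁅a, b * (τ * b * τ⁻¹)⁆ = 1
      rw [commutatorElement_eq_one_iff_mul_comm]
      exact (hZc _ (hinv b hb) a ha).symm
    rw [hχmul', h2, ← pow_two] at h3
    obtain ⟨r, hr⟩ := hX ⟨⁅a, b⁆, (hcomZ a ha b hb).1⟩
    refine eq_one_of_sq_eq_one_of_odd ((hs.odd_of_ne_two hs2).pow (n := r)) ?_ h3
    show ζ _ ^ s ^ r = 1
    rw [← map_pow, ← map_one ζ]
    exact congrArg ζ (Subtype.ext (congrArg (fun x : X => (x : G)) hr :))
  refine ⟨g, hgne, fun h1 => hg ?_, fun x hx => hZc _ (hcomZ _ hgne _ (hiX' _ hgne)) x hx, ?_⟩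
  · rw [← map_one ζ]
    exact congrArg ζ (Subtype.ext h1)
  set g0 : G := (g : G)
  set d := g0 * (τ * g0 * τ⁻¹) with hd
  have hdZ : d ∈ Z := hinv g0 hgne
  have e1 : i * ⁅g0, i * g0 * i⁻¹⁆ * i⁻¹ = ⁅i * g0 * i⁻¹, g0⁻¹ * d⁆ := by
    rw [conjugate_commutatorElement, show i * (i * g0 * i⁻¹) * i⁻¹ = g0⁻¹ * d by
      rw [hd, ← hii]; group]
  have hgi := hiX' g0 hgne
  have e2 : ⁅i * g0 * i⁻¹, d⁆ = 1 :=
    commutatorElement_eq_one_iff_mul_comm.2 (hZc d hdZ _ hgi).symm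
  have e3 : ⁅i * g0 * i⁻¹, g0⁻¹⁆ = ⁅g0, i * g0 * i⁻¹⁆ := by
    have h9 : ⁅i * g0 * i⁻¹, g0⁻¹⁆ = g0⁻¹ * ⁅g0, i * g0 * i⁻¹⁆ * g0 := by
      rw [commutatorElement_def, commutatorElement_def]; group
    rw [h9, mul_assoc, hZc _ (hcomZ _ hgne _ hgi) g0 hgne, inv_mul_cancel_left]
  rw [hmul' _ hgi _ (X.inv_mem hgne) _ hdZ.1, e2, mul_one, e3, mul_inv_eq_iff_eq_mul] at e1
  exact e1.symm

end CfsgLib.GrossTwoLength
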