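/-
Gross's bound on the `2`-length against the exponent of the Sylow `2`-subgroups.
-/
import Mathlib
import Cfsg.Agent.Lib.HallHigmanExc.GrossConfig
import Cfsg.Agent.Lib.HallHigmanExc.PLengthExp
import Cfsg.Agent.Lib.GrossTwoLength.BlockStep
import Cfsg.Agent.Lib.GrossTwoLength.CentralElement

set_option autoImplicit false
set_option linter.style.haveILetI false
set_option linter.unusedSectionVars false

open scoped commutatorElement

namespace CfsgLib.GrossTwoLength

open Cfsg CfsgLib.Cores CfsgLib.PSolvable CfsgLib.HallHigmanExc CfsgLib.CoprimeAction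

universe u v w

/-- A `p`-element centralizing every core of a solvable group without normal `p`-subgroups is
trivial. -/
theorem eq_one_of_centralizes_cores {G : Type w} [Group G] [Finite G] [Group.IsSolvable G] {p : ℕ}
    (hcore : pCore p G = ⊥) {x : G}
    (hx : ∃ k, x ^ p ^ k = 1)
    (hc : ∀ r : ℕ, r.Prime → x ∈ Subgroup.centralizer (pCore r G : Set G)) : x = 1 := by
  set C := Subgroup.centralizer (fittingSubgroup G : Set G)
  have hle : C ≤ fittingSubgroup G := centralizer_fittingSubgroup_le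
  have hab : ∀ a ∈ C, ∀ b ∈ C, a * b = b * a := fun a ha b hb =>
    (Subgroup.mem_centralizer_iff.1 ha b (hle hb)).symm
  let N : Subgroup G :=
    { carrier := {g | g ∈ C ∧ ∃ k, g ^ p ^ k = 1}
      one_mem' := ⟨C.one_mem, 0, one_pow _⟩
      mul_mem' := fun {a b} ha hb => ⟨C.mul_mem ha.1 hb.1, by
        obtain ⟨k, hk⟩ := ha.2
        obtain ⟨j, hj⟩ := hb.2
        refine ⟨k + j, ?_⟩
        rw [(show Commute a b from hab a ha.1 b hb.1).mul_pow, pow_add, pow_mul, hk, one_pow, one_mul,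
          mul_comm (p ^ k), pow_mul, hj, one_pow]⟩
      inv_mem' := fun {a} ha => ⟨C.inv_mem ha.1, by
        obtain ⟨k, hk⟩ := ha.2
        exact ⟨k, by rw [inv_pow, hk, inv_one]⟩⟩ }
  haveI : N.Normal := ⟨fun a ha g =>
    ⟨(inferInstance : C.Normal).conj_mem a ha.1 g, by
      obtain ⟨k, hk⟩ := ha.2
      exact ⟨k, by rw [conj_pow, hk, mul_one, mul_inv_cancel]⟩⟩⟩
  have hN : N ≤ pCore p G := le_pCore fun a => by
    obtain ⟨k, hk⟩ := a.2.2
    exact ⟨k, Subtype.ext hk⟩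
  rw [hcore] at hN
  refine Subgroup.mem_bot.1 (hN ⟨?_, hx⟩)
  show x ∈ C
  have hF : fittingSubgroup G ≤ Subgroup.centralizer ({x} : Set G) := by
    rw [fittingSubgroup_eq_iSup_pCore]
    exact iSup_le fun r g hg => Subgroup.mem_centralizer_singleton_iff.2
      (Subgroup.mem_centralizer_iff.1 (hc r (Nat.prime_of_mem_primeFactors r.2)) g hg)
  exact Subgroup.mem_centralizer_iff.2 fun g hg => Subgroup.mem_centralizer_singleton_iff.1 (hF hg)

/-- In a `p`-group nothing nontrivial lies in its commutator with the group. -/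
theorem eq_bot_of_le_commutator {G : Type w} [Group G] [Finite G] {p : ℕ} [Fact p.Prime]
    {Q T : Subgroup G} (hT : IsPGroup p T) (hQT : Q ≤ T) (h : Q ≤ ⁅Q, T⁆) : Q = ⊥ := by
  obtain ⟨k, hk⟩ := (Subgroup.isNilpotent_iff_lowerCentralSeries T).1 hT.isNilpotent
  have hj : ∀ j, Q ≤ T.lowerCentralSeries j := by
    intro j
    induction j with
    | zero => exact hQT
    | succ j ih => exact h.trans (Subgroup.commutator_mono ih le_rfl)
  exact le_bot_iff.1 (hk ▸ hj k)

variable {K : Type u} [Field K] {V : Type v} [AddCommGroup V] [Module K V]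

set_option maxHeartbeats 3200000 in
/-- Over two steps the exponent of the `2`-elements drops. -/
theorem pow_eq_one_of_relation [IsAlgClosed K] [FiniteDimensional K V] [CharP K 2] {H : Type w}
    [Group H] [Finite H] [Group.IsSolvable H] (hcore : pCore 2 H = ⊥) {ρ : H →* Module.End K V}
    (hρ : Function.Injective ρ) {n : ℕ}
    (hrel : ∀ y : H, (∃ k, y ^ 2 ^ k = 1) →
      y ^ 2 ^ (n + 1) = 1 ∧ ∑ i ∈ Finset.range (2 ^ (n + 1)), ρ y ^ i = 0)
    (u : (H ⧸ pPrimeCore 2 H) ⧸ pCore 2 (H ⧸ pPrimeCore 2 H)) (hu : ∃ k, u ^ 2 ^ k = 1) :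
    u ^ 2 ^ n = 1 := by
  classical
  haveI : Fact (Nat.Prime 2) := ⟨Nat.prime_two⟩
  revert u
  set O := pPrimeCore 2 H with hO
  set P1 := pCore 2 (H ⧸ O) with hP1
  intro u hu
  by_contra hne
  set f : H →* (H ⧸ O) ⧸ P1 := (QuotientGroup.mk' P1).comp (QuotientGroup.mk' O) with hf
  have hfs : Function.Surjective f :=
    (QuotientGroup.mk'_surjective P1).comp (QuotientGroup.mk'_surjective O)
  haveI hsolO : Group.IsSolvable (H ⧸ O) :=
    solvable_of_surjective (QuotientGroup.mk'_surjective O)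
  haveI hsol2 : Group.IsSolvable ((H ⧸ O) ⧸ P1) := solvable_of_surjective hfs
  have hH1 : IsPSolvable 2 (H ⧸ O) := isPSolvable_of_isSolvable
  have hO1 : pPrimeCore 2 (H ⧸ O) = ⊥ := pPrimeCore_quotient_pPrimeCore 2
  have hcore2 : pCore 2 ((H ⧸ O) ⧸ P1) = ⊥ := pCore_quotient_pCore 2 _
  set M0 := f.ker with hM0
  have hmemM0 : ∀ {x : H}, x ∈ M0 ↔ (x : H ⧸ O) ∈ P1 := fun {x} =>
    MonoidHom.mem_ker.trans (QuotientGroup.eq_one_iff (x : H ⧸ O))
  -- the Sylow subgroup and its normalizer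
  obtain ⟨PM⟩ := (inferInstance : Nonempty (Sylow 2 M0))
  set P := (PM : Subgroup M0).map M0.subtype with hP
  have hPp : IsPGroup 2 P := PM.isPGroup'.map _
  set N := Subgroup.normalizer (P : Set H) with hN
  have hPN : P ≤ N := Subgroup.le_normalizer
  have hPM0 : P ≤ M0 := Subgroup.map_subtype_le _
  have hP1P : ∀ x ∈ P1, ∃ p ∈ P, ((p : H) : H ⧸ O) = x := by
    let g : M0 →* P1 := ((QuotientGroup.mk' O).comp M0.subtype).codRestrict P1
      (fun x => hmemM0.1 x.2)
    have hgs : Function.Surjective g := fun x => by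
      obtain ⟨h, hh⟩ := QuotientGroup.mk'_surjective O (x : H ⧸ O)
      exact ⟨⟨h, hmemM0.2 (by rw [← QuotientGroup.mk'_apply, hh]; exact x.2)⟩, Subtype.ext hh⟩
    intro x hx
    have htop : (PM.mapSurjective hgs : Subgroup P1) = ⊤ :=
      ((PM.mapSurjective hgs).is_maximal' (IsPGroup.to_subgroup (isPGroup_pCore 2 _) ⊤) le_top).symm
    have h9 : (⟨x, hx⟩ : P1) ∈ (PM.mapSurjective hgs : Subgroup P1) := htop ▸ Subgroup.mem_top _
    obtain ⟨a, ha, he⟩ := h9
    exact ⟨a, ⟨a, ha, rfl⟩, congrArg Subtype.val he⟩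
  have hNrep : ∀ v, ∃ g ∈ N, f g = v := by
    intro v
    obtain ⟨h, rfl⟩ := hfs v
    have h9 : h ∈ N ⊔ M0 := by
      rw [hN, hP, Sylow.normalizer_sup_eq_top PM]; exact Subgroup.mem_top h
    obtain ⟨a, ha, b, hb, rfl⟩ := Subgroup.mem_sup_of_normal_right.1 h9
    exact ⟨a, ha, by rw [map_mul, MonoidHom.mem_ker.1 hb, mul_one]⟩
  -- a prime with a moved core
  set τ2 := u ^ 2 ^ n with hτ2
  have hτ2p : ∃ k, τ2 ^ 2 ^ k = 1 := by
    obtain ⟨k, hk⟩ := hu
    exact ⟨k, by rw [hτ2, ← pow_mul, mul_comm, pow_mul, hk, one_pow]⟩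
  obtain ⟨s, hs, hτs⟩ : ∃ s : ℕ, s.Prime ∧ τ2 ∉ Subgroup.centralizer
      (pCore s ((H ⧸ O) ⧸ P1) : Set ((H ⧸ O) ⧸ P1)) := by
    by_contra! hall
    exact hne (eq_one_of_centralizes_cores hcore2 hτ2p hall)
  haveI : Fact s.Prime := ⟨hs⟩
  have hs2 : s ≠ 2 := by
    rintro rfl
    refine hτs ?_
    rw [hcore2, Subgroup.coe_bot, Subgroup.mem_centralizer_iff]
    rintro g rfl
    rw [one_mul, mul_one]
  set S2 := pCore s ((H ⧸ O) ⧸ P1) with hS2
  have hS2p : IsPGroup s S2 := isPGroup_pCore s _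
  set L := S2.comap f ⊓ N with hL
  obtain ⟨SL⟩ := (inferInstance : Nonempty (Sylow s L))
  set S := (SL : Subgroup L).map L.subtype with hS
  have hSp : IsPGroup s S := SL.isPGroup'.map _
  have hSL : S ≤ L := Subgroup.map_subtype_le _
  have hSN : S ≤ N := hSL.trans inf_le_right
  have hSf : ∀ v ∈ S2, ∃ x ∈ S, f x = v := by
    let g : L →* S2 := (f.comp L.subtype).codRestrict S2 (fun x => x.2.1)
    have hgs : Function.Surjective g := fun v => by
      obtain ⟨x, hx, hxv⟩ := hNrep v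
      exact ⟨⟨x, show f x ∈ S2 by rw [hxv]; exact v.2, hx⟩, Subtype.ext hxv⟩
    intro v hv
    have htop : (SL.mapSurjective hgs : Subgroup S2) = ⊤ :=
      ((SL.mapSurjective hgs).is_maximal' (IsPGroup.to_subgroup hS2p ⊤) le_top).symm
    have h9 : (⟨v, hv⟩ : S2) ∈ (SL.mapSurjective hgs : Subgroup S2) := htop ▸ Subgroup.mem_top _
    obtain ⟨a, ha, he⟩ := h9
    exact ⟨a, ⟨a, ha, rfl⟩, congrArg Subtype.val he⟩
  -- a `2`-element normalizing both
  obtain ⟨g1, hg1N, hg1S, hg1u⟩ : ∃ g ∈ N, g ∈ Subgroup.normalizer (S : Set H) ∧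
      ((f g : (H ⧸ O) ⧸ P1) : _ ⧸ S2) = (u : _ ⧸ S2) := by
    obtain ⟨g0, hg0, hg0u⟩ := hNrep u
    have hg0L : g0 ∈ Subgroup.normalizer (L : Set H) := by
      refine mem_normalizer_of_conj_mem fun x hx => ⟨?_, N.mul_mem (N.mul_mem hg0 hx.2) (N.inv_mem hg0)⟩
      show f (g0 * x * g0⁻¹) ∈ S2
      rw [map_mul, map_mul, map_inv]
      exact (inferInstance : S2.Normal).conj_mem _ hx.1 _
    obtain ⟨c, hc⟩ := MulAction.exists_smul_eq L
      ((Subgroup.normalizerMonoidHom L ⟨g0, hg0L⟩ : MulAut L) • SL) SL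
    refine ⟨(c : H) * g0, N.mul_mem c.2.2 hg0, mem_normalizer_of_conj_mem ?_, ?_⟩
    · rintro _ ⟨x, hx, rfl⟩
      have h9 : c * (Subgroup.normalizerMonoidHom L ⟨g0, hg0L⟩ x) * c⁻¹ ∈ (SL : Subgroup L) := by
        rw [← hc]
        exact Subgroup.smul_mem_pointwise_smul _ (MulAut.conj c) _
          (Subgroup.smul_mem_pointwise_smul x (Subgroup.normalizerMonoidHom L ⟨g0, hg0L⟩) _ hx)
      refine ⟨_, h9, ?_⟩
      show (c : H) * (g0 * x * g0⁻¹) * (c : H)⁻¹ = (c : H) * g0 * x * ((c : H) * g0)⁻¹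
      group
    · rw [map_mul, hg0u, QuotientGroup.mk_mul, (QuotientGroup.eq_one_iff (f (c : H))).2 c.2.1, one_mul]
  obtain ⟨a, b, hab, ⟨ja, hja⟩, hb⟩ :=
    CfsgLib.NormalPComplement.exists_pParts (p := 2) (isOfFinOrder_of_finite g1)
  set y := g1 ^ a with hy
  have hyp : ∃ k, y ^ 2 ^ k = 1 := ⟨ja, orderOf_dvd_iff_pow_eq_one.1 hja⟩
  have hyN : y ∈ N := N.pow_mem hg1N _
  have hyS : y ∈ Subgroup.normalizer (S : Set H) := Subgroup.pow_mem _ hg1S _
  have hyu : ((f y : (H ⧸ O) ⧸ P1) : _ ⧸ S2) = (u : _ ⧸ S2) := by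
    set q := (QuotientGroup.mk' S2).comp f
    have h1 : q (g1 ^ b) = 1 := by
      obtain ⟨k, hk⟩ := hu
      refine orderOf_eq_one_iff.1 (Nat.eq_one_of_dvd_coprimes (a := 2 ^ k) (Nat.Coprime.pow_left k hb.symm)
        ?_ (orderOf_map_dvd q (g1 ^ b)))
      refine orderOf_dvd_of_pow_eq_one ?_
      rw [map_pow, ← pow_mul, mul_comm, pow_mul, show q g1 = (u : _ ⧸ S2) from hg1u,
        ← QuotientGroup.mk_pow, hk, QuotientGroup.mk_one, one_pow]
    have h2 := congrArg q hab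
    rw [map_mul, h1, mul_one] at h2
    exact h2.trans hg1u
  obtain ⟨hyn, hysum⟩ := hrel y hyp
  set t := y ^ 2 ^ n with ht
  have htS2 : f t ∉ Subgroup.centralizer (S2 : Set ((H ⧸ O) ⧸ P1)) := by
    intro htc
    refine hτs ?_
    set C := Subgroup.centralizer (S2 : Set ((H ⧸ O) ⧸ P1))
    have hd : τ2 * (f t)⁻¹ ∈ S2 := by
      rw [← QuotientGroup.eq_one_iff, QuotientGroup.mk_mul, QuotientGroup.mk_inv, hτ2, ht, map_pow,
        QuotientGroup.mk_pow, QuotientGroup.mk_pow, hyu, mul_inv_cancel]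
    obtain ⟨k, hk⟩ := hS2p ⟨_, hd⟩
    obtain ⟨j, hj⟩ := hτ2p
    rw [← QuotientGroup.eq_one_iff (N := C), ← orderOf_eq_one_iff]
    refine Nat.eq_one_of_dvd_coprimes (a := 2 ^ j) (b := s ^ k)
      ((((Nat.coprime_primes Nat.prime_two hs).2 (Ne.symm hs2)).pow_left j).pow_right k) ?_ ?_
    · exact orderOf_dvd_of_pow_eq_one (by rw [← QuotientGroup.mk_pow, hj, QuotientGroup.mk_one])
    · refine orderOf_dvd_of_pow_eq_one ?_
      have h9 : ((τ2 : (H ⧸ O) ⧸ P1) : _ ⧸ C) = ((τ2 * (f t)⁻¹ : (H ⧸ O) ⧸ P1) : _ ⧸ C) := by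
        rw [QuotientGroup.mk_mul, (QuotientGroup.eq_one_iff _).2 (C.inv_mem htc), mul_one]
      rw [h9, ← QuotientGroup.mk_pow, show (τ2 * (f t)⁻¹) ^ s ^ k = 1 from congrArg Subtype.val hk,
        QuotientGroup.mk_one]
  -- a minimal subgroup above
  have hnormS2 : ∀ g, g ∈ Subgroup.normalizer (S2 : Set ((H ⧸ O) ⧸ P1)) := fun g => by
    rw [Subgroup.normalizer_eq_top_iff.2 (inferInstance : S2.Normal)]; exact Subgroup.mem_top g
  obtain ⟨X2, hX2m⟩ := exists_minimal_of_wellFoundedLT (fun T : Subgroup ((H ⧸ O) ⧸ P1) =>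
    T ≤ S2 ∧ f y ∈ Subgroup.normalizer (T : Set ((H ⧸ O) ⧸ P1)) ∧
      ¬ f t ∈ Subgroup.centralizer (T : Set ((H ⧸ O) ⧸ P1))) ⟨S2, le_rfl, hnormS2 _, htS2⟩
  obtain ⟨hX2S, hyX2, htX2⟩ := hX2m.prop
  have hX2p : IsPGroup s X2 := hS2p.to_le hX2S
  have hft : f t = f y ^ 2 ^ n := by rw [ht, map_pow]
  have hfyn : f y ^ 2 ^ (n + 1) = 1 := by rw [← map_pow, hyn, map_one]
  have hcop2 : ∀ {T : Subgroup ((H ⧸ O) ⧸ P1)}, IsPGroup s T →
      (Nat.card (Subgroup.zpowers (f t))).Coprime (Nat.card T) := by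
    intro T hT
    obtain ⟨j, hj⟩ := IsPGroup.iff_card.1 hT
    rw [hj, Nat.card_zpowers]
    refine Nat.Coprime.coprime_dvd_left (orderOf_dvd_of_pow_eq_one (n := 2 ^ (n + 1)) ?_)
      ((((Nat.coprime_primes Nat.prime_two hs).2 (Ne.symm hs2)).pow_left _).pow_right j)
    rw [hft, ← pow_mul, mul_comm, pow_mul, hfyn, one_pow]
  obtain ⟨hgen2, hcl2, -⟩ := structure_of_minimal (A := Subgroup.zpowers (f y))
    (D := Subgroup.zpowers (f t)) (Q := X2) hX2p (Subgroup.zpowers_le.2 hyX2)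
    (Subgroup.zpowers_le.2 (Subgroup.centralizer_le_normalizer _ (Subgroup.mem_centralizer_iff.2
      fun d hd => by
        obtain ⟨i, rfl⟩ := Subgroup.mem_zpowers_iff.1 hd
        rw [hft]
        exact ((Commute.self_pow (f y) (2 ^ n)).zpow_right i).eq.symm)))
    (Subgroup.zpowers_le.2 (by rw [hft]; exact Subgroup.pow_mem _ hyX2 _)) (hcop2 hX2p)
    (fun hle => htX2 (hle (Subgroup.mem_zpowers _)))
    (fun R hR hyR => Subgroup.zpowers_le.2 (by
      by_contra h9
      exact hR.not_ge (hX2m.le_of_le ⟨hR.le.trans hX2S, hyR (Subgroup.mem_zpowers _), h9⟩ hR.le)))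
  have hX2ne : X2 ≠ ⊥ := fun h => htX2 (by
    rw [h, Subgroup.coe_bot, Subgroup.mem_centralizer_iff]
    rintro g rfl
    rw [one_mul, mul_one])
  -- the second module
  obtain ⟨d2, r2, ρ2, hρ2, hr2, -, hrρ2, hspan2⟩ := exists_frattini_rep hH1 hO1
  have hsum2 : ∑ i ∈ Finset.range (2 ^ (n + 1)), ρ2 (f y) ^ i = 0 := by
    have hexp1 : ∀ x : H ⧸ O, (∃ k, x ^ 2 ^ k = 1) → x ^ 2 ^ (n + 1) = 1 :=
      exp_map (p := 2) (QuotientGroup.mk'_surjective O) fun g hg => (hrel g hg).1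
    refine sum_pow_eq_zero r2 hr2 ρ2 hrρ2 hspan2 (g := (y : H ⧸ O)) fun x => hexp1 _ ?_
    obtain ⟨k, hk⟩ := hyp
    have h1 : ((x : H ⧸ O) * (y : H ⧸ O)) ^ 2 ^ k ∈ P1 := by
      rw [← QuotientGroup.eq_one_iff, QuotientGroup.mk_pow, QuotientGroup.mk_mul,
        (QuotientGroup.eq_one_iff (x : H ⧸ O)).2 x.2, one_mul, ← QuotientGroup.mk_pow,
        ← QuotientGroup.mk_pow O, hk, QuotientGroup.mk_one, QuotientGroup.mk_one]
    obtain ⟨l, hl⟩ := isPGroup_pCore 2 (H ⧸ O) ⟨_, h1⟩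
    exact ⟨k + l, by rw [pow_add, pow_mul]; exact congrArg Subtype.val hl⟩
  haveI : CharP (AlgebraicClosure (ZMod 2)) 2 :=
    charP_of_injective_algebraMap (algebraMap (ZMod 2) _).injective 2
  have hsK2 : (s : AlgebraicClosure (ZMod 2)) ≠ 0 := by
    rw [Ne, CharP.cast_eq_zero_iff _ 2 s]
    exact fun h => hs2 ((Nat.prime_dvd_prime_iff_eq Nat.prime_two hs).1 h).symm
  obtain ⟨n', hn', g2, hg2, hz2ne, hz2c, hz2i⟩ := exists_central_element hρ2 hs2 hsK2 hX2p hcl2 hyX2
    hfyn hsum2 (by rw [← hft]; exact hgen2) hX2ne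
  -- the lift
  obtain ⟨X, hXm⟩ := exists_minimal_of_wellFoundedLT (fun T : Subgroup H =>
    T ≤ S ⊓ X2.comap f ∧ y ∈ Subgroup.normalizer (T : Set H) ∧ X2 ≤ T.map f)
    ⟨S ⊓ X2.comap f, le_rfl, mem_normalizer_of_conj_mem (fun x hx =>
      ⟨(Subgroup.mem_normalizer_iff.1 hyS x).1 hx.1, by
        show f (y * x * y⁻¹) ∈ X2
        rw [map_mul, map_mul, map_inv]
        exact (Subgroup.mem_normalizer_iff.1 hyX2 _).1 hx.2⟩), fun v hv => by
      obtain ⟨x, hx, rfl⟩ := hSf v (hX2S hv)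
      exact ⟨x, ⟨hx, hv⟩, rfl⟩⟩
  obtain ⟨hXle, hyX, hX2X⟩ := hXm.prop
  have hXS : X ≤ S := hXle.trans inf_le_left
  have hXmap : X.map f = X2 := le_antisymm (Subgroup.map_le_iff_le_comap.2 (hXle.trans inf_le_right)) hX2X
  have hXp : IsPGroup s X := hSp.to_le hXS
  have hXN : X ≤ N := hXS.trans hSN
  have htX : t ∈ Subgroup.normalizer (X : Set H) := Subgroup.pow_mem _ hyX _
  have hgenX : X ≤ ⁅X, Subgroup.zpowers t⁆ := by
    have hle : ⁅X, Subgroup.zpowers t⁆ ≤ X := commutator_le_left (Subgroup.zpowers_le.2 htX)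
    refine (hXm.le_of_le (y := ⁅X, Subgroup.zpowers t⁆) ⟨hle.trans hXle, ?_, ?_⟩ hle)
    · rw [← conj_smul_eq_self]
      show Subgroup.map (MulAut.conj _).toMonoidHom _ = _
      rw [Subgroup.map_commutator]
      congr 1
      · exact conj_smul_eq_self.2 hyX
      · rw [MonoidHom.map_zpowers]
        congr 1
        show y * y ^ 2 ^ n * y⁻¹ = y ^ 2 ^ n
        rw [← pow_succ', pow_succ, mul_inv_cancel_right]
    · rw [Subgroup.map_commutator, MonoidHom.map_zpowers, hXmap]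
      exact hgen2
  set i := y ^ 2 ^ n' with hi
  have hiX : i ∈ Subgroup.normalizer (X : Set H) := Subgroup.pow_mem _ hyX _
  obtain ⟨a0, ha0, ha0g⟩ : ∃ a0 ∈ X, f a0 = g2 := by
    have h9 : g2 ∈ X.map f := hX2X hg2
    exact h9
  set b0 := i * a0 * i⁻¹ with hb0'
  have hb0 : b0 ∈ X := (Subgroup.mem_normalizer_iff.1 hiX _).1 ha0
  set z := ⁅a0, b0⁆ with hz
  have hzX : z ∈ X := Subgroup.commutator_le_self X (Subgroup.commutator_mem_commutator ha0 hb0)
  have hfz : f z = ⁅g2, f y ^ 2 ^ n' * g2 * (f y ^ 2 ^ n')⁻¹⁆ := by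
    rw [hz, hb0', map_commutatorElement, map_mul, map_mul, map_inv, ha0g, hi, map_pow]
  -- the elements of `X` in the kernel
  set Kx := X ⊓ M0 with hKx
  have hKxP : P ≤ Subgroup.centralizer (Kx : Set H) := by
    intro p hp
    rw [Subgroup.mem_centralizer_iff]
    intro x hx
    have hxO : x ∈ O := by
      rw [← QuotientGroup.eq_one_iff, ← orderOf_eq_one_iff]
      obtain ⟨k, hk⟩ := hXp ⟨x, hx.1⟩
      obtain ⟨j, hj⟩ := IsPGroup.iff_orderOf.1 (isPGroup_pCore 2 (H ⧸ O)) ⟨_, hmemM0.1 hx.2⟩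
      rw [Subgroup.orderOf_mk] at hj
      refine Nat.eq_one_of_dvd_coprimes (a := 2 ^ j) (b := s ^ k)
        ((((Nat.coprime_primes Nat.prime_two hs).2 (Ne.symm hs2)).pow_left j).pow_right k)
        (dvd_of_eq hj) (orderOf_dvd_of_pow_eq_one ?_)
      rw [← QuotientGroup.mk_pow, show x ^ s ^ k = 1 from congrArg Subtype.val hk, QuotientGroup.mk_one]
    have h1 : ⁅x, p⁆ ∈ P := P.mul_mem ((Subgroup.mem_normalizer_iff.1 (hXN hx.1) p).1 hp) (P.inv_mem hp)
    have h2 : ⁅x, p⁆ ∈ O := by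
      rw [commutatorElement_def, mul_assoc, mul_assoc, ← mul_assoc p]
      exact O.mul_mem hxO ((inferInstance : O.Normal).conj_mem _ (O.inv_mem hxO) p)
    refine commutatorElement_eq_one_iff_mul_comm.1 ?_
    obtain ⟨k, hk⟩ := hPp ⟨_, h1⟩
    exact orderOf_eq_one_iff.1 (Nat.eq_one_of_dvd_coprimes (a := 2 ^ k) (b := Nat.card O)
      ((card_pPrimeCore_coprime (G := H) 2).symm.pow_left k)
      (orderOf_dvd_of_pow_eq_one (congrArg Subtype.val hk)) (Subgroup.orderOf_dvd_natCard O h2))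
  have hzKx : ∀ g ∈ X, ⁅z, g⁆ ∈ Kx := fun g hg =>
    ⟨Subgroup.commutator_le_self X (Subgroup.commutator_mem_commutator hzX hg),
      MonoidHom.mem_ker.2 (by
        rw [map_commutatorElement, commutatorElement_eq_one_iff_mul_comm, hfz]
        exact hz2c _ (hXmap ▸ Subgroup.mem_map_of_mem f hg))⟩
  have hziKx : ⁅z, i⁆ ∈ Kx := by
    refine ⟨?_, MonoidHom.mem_ker.2 ?_⟩
    · rw [commutatorElement_def, mul_assoc, mul_assoc, ← mul_assoc i]
      exact X.mul_mem hzX ((Subgroup.mem_normalizer_iff.1 hiX _).1 (X.inv_mem hzX))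
    · rw [map_commutatorElement, commutatorElement_eq_one_iff_mul_comm, hfz, hi, map_pow]
      exact hz2i
  have hsK : (s : K) ≠ 0 := by
    rw [Ne, CharP.cast_eq_zero_iff _ 2 s]
    exact fun h => hs2 ((Nat.prime_dvd_prime_iff_eq Nat.prime_two hs).1 h).symm
  -- `X` centralizes the other cores
  have hXcores : ∀ r : ℕ, r.Prime → r ≠ s → X ≤ Subgroup.centralizer (pCore r H : Set H) := by
    intro r hr hrs
    haveI : Fact r.Prime := ⟨hr⟩
    rcases eq_or_ne r 2 with rfl | hr2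
    · intro x _
      rw [hcore, Subgroup.coe_bot, Subgroup.mem_centralizer_iff]
      rintro g rfl
      rw [one_mul, mul_one]
    have hrK : (r : K) ≠ 0 := by
      rw [Ne, CharP.cast_eq_zero_iff _ 2 r]
      exact fun h => hr2 ((Nat.prime_dvd_prime_iff_eq Nat.prime_two hr).1 h).symm
    have hnormr : ∀ g, g ∈ Subgroup.normalizer (pCore r H : Set H) := fun g => by
      rw [Subgroup.normalizer_eq_top_iff.2 (inferInstance : (pCore r H).Normal)]
      exact Subgroup.mem_top g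
    exact le_centralizer_of_involution hρ hr2 hs2 (Ne.symm hrs) hrK (isPGroup_pCore r H) hXp
      (hnormr y) hyX (fun x _ => hnormr x) hyn hysum hgenX
  -- the subgroup generated by the conjugates of `[P, z]`
  set Z0 := ⁅P, Subgroup.zpowers z⁆ with hZ0
  set A := P ⊔ X ⊔ Subgroup.zpowers y with hA
  have hAN : A ≤ N := sup_le (sup_le hPN hXN) (Subgroup.zpowers_le.2 hyN)
  have hzN : Subgroup.zpowers z ≤ N := Subgroup.zpowers_le.2 (hXN hzX)
  have hPA : P ≤ A := le_sup_left.trans le_sup_left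
  have hXA : X ≤ A := le_sup_right.trans le_sup_left
  have hyA : y ∈ A := Subgroup.mem_sup_right (Subgroup.mem_zpowers y)
  set D := sInf {T : Subgroup H | Z0 ≤ T ∧ A ≤ Subgroup.normalizer (T : Set H)} with hD
  have hZ0D : Z0 ≤ D := le_sInf fun T hT => hT.1
  have hAD : A ≤ Subgroup.normalizer (D : Set H) := fun a ha => mem_normalizer_of_conj_mem fun d hd => by
    rw [hD, Subgroup.mem_sInf] at hd ⊢
    exact fun T hT => (Subgroup.mem_normalizer_iff.1 (hT.2 ha) d).1 (hd T hT)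
  have hDle : ∀ T : Subgroup H, Z0 ≤ T → A ≤ Subgroup.normalizer (T : Set H) → D ≤ T :=
    fun T h1 h2 => sInf_le ⟨h1, h2⟩
  have hDP : D ≤ P := hDle P (commutator_le_left hzN) hAN
  have hDp : IsPGroup 2 D := hPp.to_le hDP
  have hcopD : ∀ {T : Subgroup H}, IsPGroup s T → (Nat.card D).Coprime (Nat.card T) := by
    intro T hT
    obtain ⟨j, hj⟩ := IsPGroup.iff_card.1 hT
    obtain ⟨k, hk⟩ := IsPGroup.iff_card.1 hDp
    rw [hj, hk]
    exact (((Nat.coprime_primes Nat.prime_two hs).2 (Ne.symm hs2)).pow_left _).pow_right j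
  have hcent_conj : ∀ {T : Subgroup H} {g : H}, g ∈ Subgroup.normalizer (T : Set H) →
      g ∈ Subgroup.normalizer (Subgroup.centralizer (T : Set H) : Set H) := by
    intro T g hg
    refine mem_normalizer_of_conj_mem fun c hc => Subgroup.mem_centralizer_iff.2 fun x hx => ?_
    have hx' : g⁻¹ * x * g ∈ T := by
      simpa using (Subgroup.mem_normalizer_iff.1 ((Subgroup.normalizer (T : Set H)).inv_mem hg) x).1 hx
    calc x * (g * c * g⁻¹) = g * (g⁻¹ * x * g * c) * g⁻¹ := by group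
      _ = g * (c * (g⁻¹ * x * g)) * g⁻¹ := by rw [Subgroup.mem_centralizer_iff.1 hc _ hx']
      _ = _ := by group
  have hZ0cent : ∀ T : Subgroup H, A ≤ Subgroup.normalizer (T : Set H) →
      z ∈ Subgroup.centralizer (T : Set H) → D ≤ Subgroup.centralizer (T : Set H) := by
    intro T hAT hzT
    refine hDle _ ?_ fun a ha => hcent_conj (hAT ha)
    rw [hZ0]
    exact commutator_zpowers_le hzT fun p hp =>
      (Subgroup.mem_normalizer_iff.1 (hcent_conj (hAT (hPA hp))) z).1 hzT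
  have hDcores : ∀ r : ℕ, r.Prime → r ≠ s → D ≤ Subgroup.centralizer (pCore r H : Set H) :=
    fun r hr hrs => hZ0cent _ (by
      rw [Subgroup.normalizer_eq_top_iff.2 (inferInstance : (pCore r H).Normal)]; exact le_top)
      (hXcores r hr hrs hzX)
  have hZ0ne : Z0 ≠ ⊥ := by
    intro hbot
    rw [hZ0, Subgroup.commutator_eq_bot_iff_le_centralizer] at hbot
    have hzc : (z : H ⧸ O) ∈ Subgroup.centralizer (P1 : Set (H ⧸ O)) := by
      rw [Subgroup.mem_centralizer_iff]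
      intro x hx
      obtain ⟨p, hp, rfl⟩ := hP1P x hx
      rw [← QuotientGroup.mk_mul, ← QuotientGroup.mk_mul,
        Subgroup.mem_centralizer_iff.1 (hbot hp) z (Subgroup.mem_zpowers z)]
    have h9 : f z = 1 := (QuotientGroup.eq_one_iff _).2 (centralizer_pCore_le hH1 hO1 hzc)
    exact hz2ne (hfz.symm.trans h9)
  have hDs : ¬ D ≤ Subgroup.centralizer (pCore s H : Set H) := by
    intro hle
    refine hZ0ne (le_bot_iff.1 fun x hx => Subgroup.mem_bot.2 ?_)
    obtain ⟨k, hk⟩ := hDp ⟨x, hZ0D hx⟩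
    refine eq_one_of_centralizes_cores hcore ⟨k, congrArg Subtype.val hk⟩ fun r hr => ?_
    rcases eq_or_ne r s with rfl | hrs
    · exact hle (hZ0D hx)
    · exact hDcores r hr hrs (hZ0D hx)
  -- a minimal subgroup below
  obtain ⟨Q, hQm⟩ := exists_minimal_of_wellFoundedLT (fun T : Subgroup H =>
    IsPGroup s T ∧ A ≤ Subgroup.normalizer (T : Set H) ∧ ¬ D ≤ Subgroup.centralizer (T : Set H))
    ⟨pCore s H, isPGroup_pCore s H, by
      rw [Subgroup.normalizer_eq_top_iff.2 (inferInstance : (pCore s H).Normal)]; exact le_top, hDs⟩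
  obtain ⟨hQ, hAQ, hneQ⟩ := hQm.prop
  have hmin : ∀ T : Subgroup H, T < Q → A ≤ Subgroup.normalizer (T : Set H) →
      D ≤ Subgroup.centralizer (T : Set H) := fun T hT hAT => by
    by_contra h
    exact hT.not_ge (hQm.le_of_le ⟨hQ.to_le hT.le, hAT, h⟩ hT.le)
  have hDQ : D ≤ Subgroup.normalizer (Q : Set H) := hDP.trans (hPA.trans hAQ)
  have hXQ : X ≤ Subgroup.normalizer (Q : Set H) := hXA.trans hAQ
  have hyQ : y ∈ Subgroup.normalizer (Q : Set H) := hAQ hyA
  obtain ⟨hgenQ, hclQ, -⟩ :=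
    structure_of_minimal (A := A) (D := D) hQ hAQ hAD hDQ (hcopD hQ) hneQ hmin
  haveI := hQ.isNilpotent
  have hQ1 : Q ≠ ⊥ := fun h => hneQ fun x _ => Subgroup.mem_centralizer_iff.2 fun g hg => by
    rw [h, SetLike.mem_coe, Subgroup.mem_bot] at hg
    simp [hg]
  -- the Frattini subgroup is central
  set Φ := (frattini Q).map Q.subtype with hΦ
  have hΦn : ∀ x ∈ Subgroup.normalizer (Q : Set H), x ∈ Subgroup.normalizer (Φ : Set H) := by
    intro x hx
    refine mem_normalizer_of_conj_mem ?_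
    rintro _ ⟨g, hg, rfl⟩
    exact ⟨Subgroup.normalizerMonoidHom Q ⟨x, hx⟩ g,
      (Subgroup.characteristic_iff_map_le.1 (inferInstance : (frattini Q).Characteristic) _)
        ⟨g, hg, rfl⟩, rfl⟩
  have hΦlt : Φ < Q := by
    refine lt_of_le_of_ne (Subgroup.map_subtype_le _) fun h => hQ1 ?_
    have h2 : frattini Q = ⊤ := Subgroup.map_injective Q.subtype_injective
      (h.trans (Subgroup.range_subtype Q).symm |>.trans (MonoidHom.range_eq_map _))
    have h3 : (⊥ : Subgroup Q) = ⊤ := frattini_nongenerating (by rw [bot_sup_eq, h2])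
    rw [← Subgroup.range_subtype Q, MonoidHom.range_eq_map, ← h3, Subgroup.map_bot]
  have hDΦ := hmin Φ hΦlt fun x hx => hΦn x (hAQ hx)
  have hΦc : Φ ≤ Subgroup.centralizer (Q : Set H) := by
    rw [← Subgroup.commutator_eq_bot_iff_le_centralizer]
    have hQDΦ : ⁅⁅Q, D⁆, Φ⁆ = ⊥ := by
      refine Subgroup.commutator_commutator_eq_bot_of_rotate ?_ ?_
      · rw [Subgroup.commutator_eq_bot_iff_le_centralizer.2 hDΦ, Subgroup.commutator_bot_left]
      · refine le_bot_iff.1 (le_trans (Subgroup.commutator_mono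
          (commutator_le_left fun x hx => hΦn x (Subgroup.le_normalizer hx)) le_rfl) ?_)
        rw [Subgroup.commutator_comm, Subgroup.commutator_eq_bot_iff_le_centralizer.2 hDΦ]
    refine le_bot_iff.1 ((Subgroup.commutator_mono le_rfl hgenQ).trans ?_)
    rw [Subgroup.commutator_comm, hQDΦ]
  -- the centre is proper
  set Z := Q ⊓ Subgroup.centralizer (Q : Set H) with hZ
  have hcardA := card_centerImage_ne_zero (ρ := ρ) hQ hsK
  obtain ⟨hfin, hsumb⟩ := exists_sum_blk (K := K) (centerImage ρ Q) hcardA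
  have hZlt : Z < Q := by
    refine lt_of_le_of_ne inf_le_left fun hZQ => hneQ ?_
    have hQab : ∀ g ∈ Q, g ∈ Subgroup.centralizer (Q : Set H) := fun g hg => (hZQ.ge hg).2
    have htc : t ∈ Subgroup.centralizer (Q : Set H) := by
      rw [Subgroup.mem_centralizer_iff]
      intro g hg
      suffices h : ρ (t * g * t⁻¹) = ρ g from (mul_inv_eq_iff_eq_mul.1 (hρ h)).symm
      rw [← mul_one (ρ (t * g * t⁻¹)), ← mul_one (ρ g), ← hsumb, Finset.mul_sum, Finset.mul_sum]
      refine Finset.sum_congr rfl fun l _ => ?_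
      by_cases hl : blk (centerImage ρ Q) l = 0
      · rw [hl, mul_zero, mul_zero]
      have hte : Commute (ρ t) (blk (centerImage ρ Q) l) :=
        pow_commute_blk hQ hsK hyQ ⟨hyn, hysum⟩ hl
      set e := blk (centerImage ρ Q) l
      obtain ⟨c, hc⟩ : ∃ c : K, ρ g * e = c • e :=
        ⟨_, mul_blk (centerImage ρ Q) l ⟨_, Subgroup.mem_map_of_mem ρ.toHomUnits
          (show g ∈ Q ⊓ Subgroup.centralizer (Q : Set H) from ⟨hg, hQab g hg⟩)⟩⟩
      rw [map_mul, map_mul, mul_assoc, (commute_inv hte).eq, mul_assoc, ← mul_assoc (ρ g), hc,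
        smul_mul_assoc, mul_smul_comm, ← mul_assoc, hte.eq, mul_assoc, (rho_mul_inv t).1, mul_one]
    have hzc : z ∈ Subgroup.centralizer (Q : Set H) := (hgenX.trans (commutator_zpowers_le htc
      fun g hg => (Subgroup.mem_normalizer_iff.1 (hcent_conj (hXQ hg)) t).1 htc)) hzX
    exact hZ0cent Q hAQ hzc
  have hDZ := hmin Z hZlt fun x hx => mem_normalizer_center (hAQ hx)
  -- the kernel centralizes `Q`
  have hKxn : A ≤ Subgroup.normalizer (Kx : Set H) := by
    refine sup_le (sup_le (hKxP.trans (Subgroup.centralizer_le_normalizer _)) fun x hx => ?_)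
      (Subgroup.zpowers_le.2 ?_)
    · exact mem_normalizer_of_conj_mem fun k hk =>
        ⟨X.mul_mem (X.mul_mem hx hk.1) (X.inv_mem hx), (inferInstance : M0.Normal).conj_mem k hk.2 x⟩
    · exact mem_normalizer_of_conj_mem fun k hk =>
        ⟨(Subgroup.mem_normalizer_iff.1 hyX k).1 hk.1, (inferInstance : M0.Normal).conj_mem k hk.2 y⟩
  have hKxQ : Kx ≤ Subgroup.centralizer (Q : Set H) := by
    have hKxQn : Kx ≤ Subgroup.normalizer (Q : Set H) := inf_le_left.trans hXQ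
    set Y := ⁅Q, Kx⁆ with hY
    have hYlt : Y < Q := by
      refine lt_of_le_not_ge (commutator_le_left hKxQn) fun hle => hQ1 ?_
      exact eq_bot_of_le_commutator (T := Q ⊔ Kx)
        (hQ.to_sup_of_normal_left' (hXp.to_le inf_le_left) hKxQn) le_sup_left
        (hle.trans (Subgroup.commutator_mono le_rfl le_sup_right))
    have hAY : A ≤ Subgroup.normalizer (Y : Set H) := by
      intro a ha
      rw [← conj_smul_eq_self]
      show Subgroup.map (MulAut.conj a).toMonoidHom _ = _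
      rw [hY, Subgroup.map_commutator]
      congr 1
      · exact conj_smul_eq_self.2 (hAQ ha)
      · exact conj_smul_eq_self.2 (hKxn ha)
    have h1 : ⁅⁅Q, D⁆, Kx⁆ = ⊥ := by
      refine Subgroup.commutator_commutator_eq_bot_of_rotate ?_ ?_
      · rw [Subgroup.commutator_eq_bot_iff_le_centralizer.2 (hDP.trans hKxP),
          Subgroup.commutator_bot_left]
      · rw [Subgroup.commutator_comm Kx Q, Subgroup.commutator_comm, ← hY,
          Subgroup.commutator_eq_bot_iff_le_centralizer.2 (hmin Y hYlt hAY)]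
    rw [← Subgroup.commutator_eq_bot_iff_le_centralizer, Subgroup.commutator_comm]
    exact le_bot_iff.1 ((Subgroup.commutator_mono hgenQ le_rfl).trans h1.le)
  -- the commutators with `z` act trivially modulo the centre
  have hcentral : ∀ d ∈ D, ∀ g ∈ Q, ⁅g, ⁅d, z⁆⁆ ∈ Z := by
    intro d hd g hg
    have hblock := fun l hl => block_step (ρ := ρ) hs2 hsK hQ hXp hDp hclQ
      (fun g hg => hΦc ⟨⟨g, hg⟩ ^ s, CfsgLib.PGroups.pow_mem_frattini hQ ⟨g, hg⟩, rfl⟩)
      hXQ hDQ hDZ (hXA.trans hAD) hyQ hyX (hAD hyA) hyn hysum hgenX ha0 hb0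
      (fun x hx => hKxQ (hzKx x hx))
      (fun m hm => by
        obtain rfl : m = n' := by omega
        exact hKxQ hziKx)
      l hl d hd g hg
    set w := ⁅g, ⁅d, z⁆⁆ with hw
    have hwQ : w ∈ Q := by
      have hdz : ⁅d, z⁆ ∈ Subgroup.normalizer (Q : Set H) := by
        have hd' := hDQ hd
        have hz' := hXQ hzX
        rw [commutatorElement_def]
        exact mul_mem (mul_mem (mul_mem hd' hz') (inv_mem hd')) (inv_mem hz')
      rw [hw, commutatorElement_def, mul_assoc, mul_assoc, ← mul_assoc ⁅d, z⁆]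
      exact Q.mul_mem hg ((Subgroup.mem_normalizer_iff.1 hdz _).1 (Q.inv_mem hg))
    refine ⟨hwQ, Subgroup.mem_centralizer_iff.2 fun c hc => hρ ?_⟩
    rw [map_mul, map_mul, ← mul_one (ρ c * ρ w), ← mul_one (ρ w * ρ c), ← hsumb, Finset.mul_sum,
      Finset.mul_sum]
    refine Finset.sum_congr rfl fun l _ => ?_
    by_cases hl : blk (centerImage ρ Q) l = 0
    · rw [hl, mul_zero, mul_zero]
    · exact ((hblock l hl).2 c hc).symm
  let W : Subgroup H :=
    { carrier := {x | x ∈ Subgroup.normalizer (Q : Set H) ∧ ∀ g ∈ Q, ⁅g, x⁆ ∈ Z}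
      one_mem' := ⟨one_mem _, fun g _ => by rw [commutatorElement_one_right]; exact Z.one_mem⟩
      mul_mem' := fun {x x'} hx hx' => ⟨mul_mem hx.1 hx'.1, fun g hg => by
        rw [show ⁅g, x * x'⁆ = ⁅g, x⁆ * (x * ⁅g, x'⁆ * x⁻¹) by
          rw [commutatorElement_def, commutatorElement_def, commutatorElement_def]; group]
        exact Z.mul_mem (hx.2 g hg)
          ((Subgroup.mem_normalizer_iff.1 (mem_normalizer_center hx.1) _).1 (hx'.2 g hg))⟩
      inv_mem' := fun {x} hx => ⟨inv_mem hx.1, fun g hg => by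
        rw [show ⁅g, x⁻¹⁆ = x⁻¹ * ⁅g, x⁆⁻¹ * (x⁻¹)⁻¹ by
          rw [commutatorElement_def, commutatorElement_def]; group]
        exact (Subgroup.mem_normalizer_iff.1 (mem_normalizer_center (inv_mem hx.1)) _).1
          (Z.inv_mem (hx.2 g hg))⟩ }
  have hWn : A ≤ Subgroup.normalizer (W : Set H) := fun a ha => mem_normalizer_of_conj_mem fun x hx =>
    ⟨mul_mem (mul_mem (hAQ ha) hx.1) (inv_mem (hAQ ha)), fun g hg => by
      have hg' : a⁻¹ * g * a ∈ Q := by
        simpa using (Subgroup.mem_normalizer_iff.1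
          ((Subgroup.normalizer (Q : Set H)).inv_mem (hAQ ha)) g).1 hg
      rw [show ⁅g, a * x * a⁻¹⁆ = a * ⁅a⁻¹ * g * a, x⁆ * a⁻¹ by
        rw [commutatorElement_def, commutatorElement_def]; group]
      exact (Subgroup.mem_normalizer_iff.1 (mem_normalizer_center (hAQ ha)) _).1 (hx.2 _ hg')⟩
  have hDzW : ⁅D, Subgroup.zpowers z⁆ ≤ W := by
    refine Subgroup.commutator_le.2 fun d hd e he => ?_
    obtain ⟨k, rfl⟩ := (isOfFinOrder_of_finite z).mem_zpowers_iff_mem_range_orderOf.1 he |>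
      Finset.mem_image.1 |>.imp fun _ h => h.2
    induction k with
    | zero => rw [pow_zero, commutatorElement_one_right]; exact W.one_mem
    | succ k ih =>
      rw [show ⁅d, z ^ (k + 1)⁆ = ⁅d, z⁆ * (z * ⁅d, z ^ k⁆ * z⁻¹) by
        rw [pow_succ', commutatorElement_def, commutatorElement_def, commutatorElement_def]; group]
      refine W.mul_mem ⟨?_, fun g hg => hcentral d hd g hg⟩
        ((Subgroup.mem_normalizer_iff.1 (hWn (hXA hzX)) _).1 (ih (Subgroup.pow_mem _ (Subgroup.mem_zpowers z) k)))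
      have hd' := hDQ hd
      have hz' := hXQ hzX
      rw [commutatorElement_def]
      exact mul_mem (mul_mem (mul_mem hd' hz') (inv_mem hd')) (inv_mem hz')
  have hcopz : (Nat.card (Subgroup.zpowers z)).Coprime (Nat.card P) := by
    obtain ⟨j, hj⟩ := IsPGroup.iff_card.1 hPp
    obtain ⟨k, hk⟩ := IsPGroup.iff_card.1 (hXp.to_le (Subgroup.zpowers_le.2 hzX))
    rw [hj, hk]
    exact (((Nat.coprime_primes hs Nat.prime_two).2 hs2).pow_left _).pow_right j
  haveI := hPp.isNilpotent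
  have hDW : D ≤ W := hDle W (by
    rw [hZ0, ← commutator_commutator_eq hzN hcopz (Or.inr (inferInstance : Group.IsSolvable P))]
    exact (Subgroup.commutator_mono hZ0D le_rfl).trans hDzW) hWn
  exact hZlt.not_ge (hgenQ.trans (Subgroup.commutator_le.2 fun g hg d hd => (hDW hd).2 g hg))

/-- The `2`-length against the exponent of the `2`-elements. -/
theorem pLengthLE_two : ∀ (e : ℕ) {G : Type w} [Group G] [Finite G], Group.IsSolvable G →
    (∀ g : G, (∃ k, g ^ 2 ^ k = 1) → g ^ 2 ^ (e + 1) = 1) → PLengthLE 2 (2 * e + 1) G := by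
  haveI : Fact (Nat.Prime 2) := ⟨Nat.prime_two⟩
  haveI : CharP (AlgebraicClosure (ZMod 2)) 2 :=
    charP_of_injective_algebraMap (algebraMap (ZMod 2) _).injective 2
  intro e
  induction e with
  | zero =>
    intro G _ _ hsol hexp
    haveI := hsol
    have hG1 : IsPSolvable 2 (G ⧸ pPrimeCore 2 G) := by
      haveI : Group.IsSolvable (G ⧸ pPrimeCore 2 G) :=
        solvable_of_surjective (QuotientGroup.mk'_surjective _)
      exact isPSolvable_of_isSolvable
    refine pLengthLE_succ_of_quotient (l := 0) (pLengthLE_zero_of_exponent ?_)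
    obtain ⟨d, r, ρ, hρ, hr, -, hrρ, hspan⟩ :=
      exists_frattini_rep hG1 (pPrimeCore_quotient_pPrimeCore (G := G) 2)
    have hexp1 := exp_map (p := 2) (QuotientGroup.mk'_surjective (pPrimeCore 2 G)) hexp
    intro v hv
    obtain ⟨g, rfl⟩ := QuotientGroup.mk'_surjective _ v
    obtain ⟨k, hk⟩ := hv
    rw [← map_pow, QuotientGroup.mk'_apply, QuotientGroup.eq_one_iff] at hk
    have hsum : ∑ i ∈ Finset.range (2 ^ (0 + 1)), ρ g ^ i = 0 := by
      refine sum_pow_eq_zero r hr ρ hrρ hspan fun x => hexp1 _ ?_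
      have h1 : ((x : G ⧸ pPrimeCore 2 G) * g) ^ 2 ^ k ∈ pCore 2 (G ⧸ pPrimeCore 2 G) := by
        rw [← QuotientGroup.eq_one_iff, QuotientGroup.mk_pow, QuotientGroup.mk_mul,
          (QuotientGroup.eq_one_iff (x : G ⧸ pPrimeCore 2 G)).2 x.2, one_mul, ← QuotientGroup.mk_pow,
          QuotientGroup.eq_one_iff]
        exact hk
      obtain ⟨l, hl⟩ := isPGroup_pCore 2 (G ⧸ pPrimeCore 2 G) ⟨_, h1⟩
      exact ⟨k + l, by rw [pow_add, pow_mul]; exact congrArg Subtype.val hl⟩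
    rw [zero_add, pow_one, Finset.sum_range_succ, Finset.sum_range_one, pow_zero, pow_one] at hsum
    rw [pow_zero, pow_one]
    apply hρ
    rw [map_one]
    refine LinearMap.ext fun x => ?_
    have h9 := LinearMap.congr_fun hsum x
    rw [LinearMap.add_apply, Module.End.one_apply, LinearMap.zero_apply,
      add_eq_zero_iff_eq_neg] at h9
    have h2 : (2 : AlgebraicClosure (ZMod 2)) = 0 := CharTwo.two_eq_zero
    have hneg : -(ρ g x) = ρ g x := neg_eq_of_add_eq_zero_left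
      (by rw [← two_smul (AlgebraicClosure (ZMod 2)), h2, zero_smul])
    rw [Module.End.one_apply]
    show ρ (QuotientGroup.mk g) x = x
    rw [← hneg, ← h9]
  | succ e ih =>
    intro G _ _ hsol hexp
    haveI := hsol
    haveI hsol1 : Group.IsSolvable (G ⧸ pPrimeCore 2 G) :=
      solvable_of_surjective (QuotientGroup.mk'_surjective _)
    haveI hsolH : Group.IsSolvable ((G ⧸ pPrimeCore 2 G) ⧸ pCore 2 (G ⧸ pPrimeCore 2 G)) :=
      solvable_of_surjective (QuotientGroup.mk'_surjective _)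
    set O := pPrimeCore 2 G with hO
    set P := pCore 2 (G ⧸ O) with hP
    obtain ⟨d, r, ρ, hρ, hr, -, hrρ, hspan⟩ :=
      exists_frattini_rep (G := G ⧸ O) isPSolvable_of_isSolvable
        (pPrimeCore_quotient_pPrimeCore (G := G) 2)
    have hexp1 := exp_map (p := 2) (QuotientGroup.mk'_surjective O) hexp
    have hexp2 := exp_map (p := 2) (QuotientGroup.mk'_surjective P) hexp1
    have hrel : ∀ v : (G ⧸ O) ⧸ P, (∃ k, v ^ 2 ^ k = 1) →
        v ^ 2 ^ (e + 1 + 1) = 1 ∧ ∑ i ∈ Finset.range (2 ^ (e + 1 + 1)), ρ v ^ i = 0 := by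
      intro v hv
      refine ⟨hexp2 v hv, ?_⟩
      obtain ⟨g, rfl⟩ := QuotientGroup.mk'_surjective P v
      obtain ⟨k, hk⟩ := hv
      rw [← map_pow, QuotientGroup.mk'_apply, QuotientGroup.eq_one_iff] at hk
      refine sum_pow_eq_zero r hr ρ hrρ hspan fun x => hexp1 _ ?_
      have h1 : ((x : G ⧸ O) * g) ^ 2 ^ k ∈ P := by
        rw [← QuotientGroup.eq_one_iff, QuotientGroup.mk_pow, QuotientGroup.mk_mul,
          (QuotientGroup.eq_one_iff (x : G ⧸ O)).2 x.2, one_mul, ← QuotientGroup.mk_pow,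
          QuotientGroup.eq_one_iff]
        exact hk
      obtain ⟨l, hl⟩ := isPGroup_pCore 2 (G ⧸ O) ⟨_, h1⟩
      exact ⟨k + l, by rw [pow_add, pow_mul]; exact congrArg Subtype.val hl⟩
    have hstep := pow_eq_one_of_relation (n := e + 1) (pCore_quotient_pCore 2 (G ⧸ O)) hρ hrel
    refine pLengthLE_succ_of_quotient (l := 2 * e + 2) (pLengthLE_succ_of_quotient (l := 2 * e + 1) ?_)
    refine ih ?_ hstep
    exact solvable_of_surjective (QuotientGroup.mk'_surjective _) |> fun h =>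
      @solvable_of_surjective _ _ _ _ _ (QuotientGroup.mk'_surjective _) h

end CfsgLib.GrossTwoLength
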